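import Cfsg.Agent.H4.Knorr
import Cfsg.Agent.H4.FixAvg2
import Cfsg.Agent.H4.KGV
import Cfsg.Agent.H1.Basic

/-! Counting commuting pairs and commuting pairs with a common fixed vector. -/

set_option autoImplicit false
set_option linter.unusedSectionVars false

namespace Cfsg.Agent.Kr

open Subgroup Function
open scoped IsMulCommutative

/-- the number of commuting pairs -/
noncomputable def cp (G : Type*) [Group G] : ℕ := Nat.card {x : G × G // Commute x.1 x.2}

variable {G G' N V V' U : Type*} [Group G] [Group G'] [Group N] [AddCommGroup V] [AddCommGroup V']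
  [AddCommGroup U] {ρ : Representation ℤ G V} {ρ' : Representation ℤ G' V'} {σ : Representation ℤ N U} {b : Prop}

def Tr (ρ : Representation ℤ G V) (b : Prop) (x : (G × G) × V) : Prop :=
  Commute x.1.1 x.1.2 ∧ ρ x.1.1 x.2 = x.2 ∧ ρ x.1.2 x.2 = x.2 ∧ (b → x.2 = 0)

/-- the number of commuting pairs with a common fixed vector (the zero vector if `b`) -/
noncomputable def T (ρ : Representation ℤ G V) (b : Prop) : ℕ := Nat.card {x // Tr ρ b x}

/-- restriction along a homomorphism -/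
abbrev res (ρ : Representation ℤ G V) (ι : N →* G) : Representation ℤ N V := ρ.comp ι

theorem cp_eq [Finite G] : cp G = Nat.card (ConjClasses G) * Nat.card G :=
  card_comm_eq_card_conjClasses_mul_card G

theorem T_eq (h : b ∨ Subsingleton V) : T ρ b = cp G :=
  Nat.card_congr ⟨fun x => ⟨x.1.1, x.2.1⟩, fun x => ⟨(x.1, 0), x.2, map_zero _, map_zero _, fun _ => rfl⟩,
    fun x => Subtype.ext (Prod.ext rfl (h.elim (fun h => (x.2.2.2.2 h).symm) fun _ => Subsingleton.elim _ _)),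
    fun _ => rfl⟩

variable [Finite G] [Finite G'] [Finite N] [Finite V] [Finite V'] [Finite U]

theorem cp_le_T : cp G ≤ T ρ b :=
  Nat.card_le_card_of_injective (fun x => ⟨(x.1, 0), x.2, map_zero _, map_zero _, fun _ => rfl⟩)
    fun _ _ h => Subtype.ext (congrArg (·.1.1) h)

theorem cp_le_sq : cp G ≤ Nat.card G * Nat.card G :=
  Nat.card_prod G G ▸ Nat.card_le_card_of_injective _ Subtype.val_injective

theorem T_le_of_inj (f : G →* G') (π : V →ₗ[ℤ] V') (hf : Injective f) (hπ : Injective π)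
    (h : ∀ g v, π (ρ g v) = ρ' (f g) (π v)) : T ρ b ≤ T ρ' b :=
  Nat.card_le_card_of_injective (fun x => ⟨((f x.1.1.1, f x.1.1.2), π x.1.2), x.2.1.map f,
    by rw [← h, x.2.2.1], by rw [← h, x.2.2.2.1], fun hb => by rw [x.2.2.2.2 hb, map_zero]⟩) fun x y e => by
      have e := congrArg Subtype.val e
      simp only [Prod.mk.injEq] at e
      exact Subtype.ext (Prod.ext (Prod.ext (hf e.1.1) (hf e.1.2)) (hπ e.2))

theorem T_le_mul (f : G →* G') (π : V →ₗ[ℤ] V') (ι : N →* G) (j : U →ₗ[ℤ] V) (hι : Injective ι)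
    (hj : Injective j) (h1 : ∀ g v, π (ρ g v) = ρ' (f g) (π v)) (h2 : ∀ n u, j (σ n u) = ρ (ι n) (j u))
    (hk : ∀ g, f g = 1 → ∃ n, ι n = g) (hk' : ∀ v, π v = 0 → ∃ u, j u = v) : T ρ b ≤ T ρ' b * T σ b := by
  let s : G × V × G' → G := fun x => Classical.epsilon fun h => Commute x.1 h ∧ ρ h x.2.1 = x.2.1 ∧ f h = x.2.2
  let w : N × N × V' → V := fun x => Classical.epsilon fun v =>
    ρ (ι x.1) v = v ∧ ρ (ι x.2.1) v = v ∧ π v = x.2.2 ∧ (b → v = 0)
  have hs : ∀ g h v, Commute g h → ρ h v = v → ∃ n, Commute g (ι n) ∧ ρ (ι n) v = v ∧ h = s (g, v, f h) * ι n := by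
    intro g h v c e
    obtain ⟨c', e', e''⟩ := Classical.epsilon_spec (p := fun k => Commute g k ∧ ρ k v = v ∧ f k = f h) ⟨h, c, e, rfl⟩
    obtain ⟨n, hn⟩ := hk ((s (g, v, f h))⁻¹ * h) (by rw [map_mul, map_inv, e'', inv_mul_cancel])
    refine ⟨n, hn ▸ c'.inv_right.mul_right c, ?_, by rw [hn]; simp⟩
    rw [hn, map_mul, Module.End.mul_apply, e]
    exact (congrArg _ e'.symm).trans (ρ.inv_self_apply _ _)
  have key : ∀ x : {x // Tr ρ b x}, ∃ y : {y // Tr σ b y}, x.1.1.2 = s (x.1.1.1, x.1.2, f x.1.1.2) * ι y.1.1.1 ∧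
      x.1.1.1 = s (ι y.1.1.1, x.1.2, f x.1.1.1) * ι y.1.1.2 ∧ x.1.2 = w (y.1.1.1, y.1.1.2, π x.1.2) + j y.1.2 := by
    rintro ⟨⟨⟨g, h⟩, v⟩, c, e1, e2, e3⟩
    obtain ⟨n, c1, f1, r1⟩ := hs g h v c e2
    obtain ⟨m, c2, f2, r2⟩ := hs _ g v c1.symm e1
    obtain ⟨a1, a2, a3, a4⟩ := Classical.epsilon_spec
      (p := fun u => ρ (ι n) u = u ∧ ρ (ι m) u = u ∧ π u = π v ∧ (b → u = 0)) ⟨v, f1, f2, rfl, e3⟩
    obtain ⟨u, hu⟩ := hk' (v - w (n, m, π v)) (by rw [map_sub, a3, sub_self])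
    refine ⟨⟨((n, m), u), hι (by simpa using c2.eq), hj ?_, hj ?_, fun hb => hj ?_⟩, r1, r2, by rw [hu]; simp⟩
    · rw [h2, hu, map_sub, f1, a1]
    · rw [h2, hu, map_sub, f2, a2]
    · rw [hu, map_zero, sub_eq_zero]; exact (e3 hb).trans (a4 hb).symm
  choose Y hY using key
  rw [T, T, T, ← Nat.card_prod]
  refine Nat.card_le_card_of_injective (fun x => (⟨((f x.1.1.1, f x.1.1.2), π x.1.2), x.2.1.map f,
    by rw [← h1, x.2.2.1], by rw [← h1, x.2.2.2.1], fun hb => by rw [x.2.2.2.2 hb, map_zero]⟩, Y x)) fun x y e => ?_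
  have e4 : Y x = Y y := congrArg Prod.snd e
  have e1 : f x.1.1.1 = f y.1.1.1 := congrArg (·.1.1.1.1) e
  have e2 : f x.1.1.2 = f y.1.1.2 := congrArg (·.1.1.1.2) e
  have e3 : π x.1.2 = π y.1.2 := congrArg (·.1.1.2) e
  have a1 : x.1.2 = y.1.2 := by rw [(hY x).2.2, (hY y).2.2, e4, e3]
  have a2 : x.1.1.1 = y.1.1.1 := by rw [(hY x).2.1, (hY y).2.1, e4, e1, a1]
  exact Subtype.ext (Prod.ext (Prod.ext a2 (by rw [(hY x).1, (hY y).1, e4, e2, a1, a2])) a1)

theorem T_le_cp_mul (f : G →* G') (ι : N →* G) (hι : Injective ι) (hk : ∀ g, f g = 1 → ∃ n, ι n = g) :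
    T ρ b ≤ cp G' * T (res ρ ι) b := by
  rw [← T_eq (ρ := (1 : Representation ℤ G' PUnit)) (b := b) (.inr inferInstance)]
  exact T_le_mul f 0 ι LinearMap.id hι injective_id (fun _ _ => rfl) (fun _ _ => rfl) hk fun v _ => ⟨v, rfl⟩

theorem cp_le_mul (f : G →* G') (ι : N →* G) (hι : Injective ι) (hk : ∀ g, f g = 1 → ∃ n, ι n = g) :
    cp G ≤ cp G' * cp N := by
  have := T_le_cp_mul (ρ := (1 : Representation ℤ G PUnit)) (b := True) f ι hι hk
  rwa [T_eq (.inl trivial), T_eq (.inl trivial)] at this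

theorem card_eq_mul (f : G →* G') (ι : N →* G) (hf : Surjective f) (hι : Injective ι)
    (hk : ∀ g, f g = 1 ↔ ∃ n, ι n = g) : Nat.card G = Nat.card G' * Nat.card N := by
  rw [card_eq_card_quotient_mul_card_subgroup f.ker, Nat.card_congr (QuotientGroup.quotientKerEquivOfSurjective f hf).toEquiv,
    show f.ker = ι.range from ext hk, Nat.card_congr (MonoidHom.ofInjective hι).toEquiv]

theorem cp_eq_sum [Fintype G] : cp G = ∑ g : G, Nat.card (centralizer ({g} : Set G)) := by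
  rw [cp, ← Nat.card_sigma]
  exact Nat.card_congr ⟨fun x => ⟨x.1.1, x.1.2, mem_centralizer_singleton_iff.2 x.2.symm⟩,
    fun x => ⟨(x.1, x.2), (mem_centralizer_singleton_iff.1 x.2.2).symm⟩, fun _ => rfl, fun _ => rfl⟩

/-- few elements with large centralizers -/
theorem cp_le_of_cent (S : Set G) {a c : ℕ} (h : ∀ g ∉ S, a * Nat.card (centralizer ({g} : Set G)) ≤ c) :
    a * cp G + S.ncard * c ≤ a * S.ncard * Nat.card G + Nat.card G * c := by
  classical
  have := Fintype.ofFinite G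
  rw [cp_eq_sum, Finset.mul_sum, ← Finset.sum_filter_add_sum_filter_not _ (· ∈ S)]
  have e : S.ncard = (Finset.univ.filter (· ∈ S)).card := by rw [← Set.ncard_coe_finset]; simp
  have h1 := Finset.sum_le_card_nsmul (Finset.univ.filter (· ∈ S))
    (fun g => a * Nat.card (centralizer ({g} : Set G))) (a * Nat.card G)
    fun g _ => Nat.mul_le_mul_left _ (card_le_card_group _)
  have h2 := Finset.sum_le_card_nsmul (Finset.univ.filter (· ∉ S)) _ c fun g hg => h g (Finset.mem_filter.1 hg).2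
  have h3 := Finset.card_filter_add_card_filter_not (s := Finset.univ) (· ∈ S)
  rw [Finset.card_univ, ← Nat.card_eq_fintype_card] at h3
  rw [← e] at h1 h3
  simp only [smul_eq_mul] at h1 h2
  nth_rw 2 [← h3]
  nlinarith

theorem cp_eq_of_compl (A : Subgroup G) [A.Normal] [IsMulCommutative A] {H : Subgroup G} (hH : A.IsComplement' H)
    (hc : (Nat.card A).Coprime (Nat.card H)) :
    cp G = Nat.card A * T (res (H4.conjRep A) H.subtype) False := by
  have := Fintype.ofFinite H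
  have h1 : cp G = ∑ q : H × H, Nat.card {p : A × A // Commute (p.1 * q.1 : G) (p.2 * q.2)} := by
    rw [← Nat.card_sigma]
    symm
    refine Nat.card_eq_of_bijective (fun s => ⟨(s.2.1.1 * s.1.1, s.2.1.2 * s.1.2), s.2.2⟩) ⟨?_, ?_⟩
    · rintro ⟨⟨g, h⟩, ⟨v, w⟩, e⟩ ⟨⟨g', h'⟩, ⟨v', w'⟩, e'⟩ hh
      simp only [Subtype.mk.injEq, Prod.mk.injEq] at hh
      cases hH.1 (a₁ := (v, g)) (a₂ := (v', g')) hh.1
      cases hH.1 (a₁ := (w, h)) (a₂ := (w', h')) hh.2
      rfl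
    · rintro ⟨⟨x, y⟩, hxy⟩
      obtain ⟨⟨v, g⟩, rfl⟩ := hH.2 x
      obtain ⟨⟨w, h⟩, rfl⟩ := hH.2 y
      exact ⟨⟨(g, h), (v, w), hxy⟩, rfl⟩
  have h3 : T (res (H4.conjRep A) H.subtype) False =
      ∑ q : H × H, Nat.card {u // Tr (res (H4.conjRep A) H.subtype) False (q, u)} := by
    rw [← Nat.card_sigma]
    exact Nat.card_congr ⟨fun x => ⟨x.1.1, x.1.2, x.2⟩, fun x => ⟨(x.1, x.2.1), x.2.2⟩, fun _ => rfl, fun _ => rfl⟩
  rw [h1, h3, Finset.mul_sum]
  refine Finset.sum_congr rfl fun ⟨g, h⟩ _ => ?_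
  by_cases c : Commute g h
  · refine (H4.card_commute_over A (fun a ha b hb => setLike_mul_comm ha hb) (c.map H.subtype)
      (n := Nat.card H) (congrArg Subtype.val (pow_card_eq_one' (x := g)))
      (congrArg Subtype.val (pow_card_eq_one' (x := h))) hc.symm).trans ?_
    congr 1
    have : ∀ (k : H) (u : A), Commute (u : G) k ↔ H4.conjRep A k (.ofMul u) = .ofMul u := fun k u => by
      rw [← Additive.toMul.apply_eq_iff_eq, Subtype.ext_iff, H4.conjRep_apply, mul_inv_eq_iff_eq_mul]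
      exact eq_comm
    exact Nat.card_congr (Equiv.subtypeEquiv Additive.ofMul fun u => by simp [Tr, c, ← this])
  · rw [Nat.card_eq_zero (α := {u // Tr _ _ _}).2 (.inl ⟨fun x => c x.2.1⟩), mul_zero, Nat.card_eq_zero]
    refine .inl ⟨fun ⟨⟨v, w⟩, e⟩ => c (mul_inv_eq_one.1 (Subtype.ext ((disjoint_def.1 hH.disjoint) ?_ (g * h * (h * g)⁻¹).2)))⟩
    have e2 := congrArg (QuotientGroup.mk : G → G ⧸ A) e.eq
    simp only [QuotientGroup.mk_mul, (QuotientGroup.eq_one_iff _).2 v.2, (QuotientGroup.eq_one_iff _).2 w.2,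
      one_mul] at e2
    rw [← QuotientGroup.eq_one_iff]
    simp [e2]

end Cfsg.Agent.Kr
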