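import Cfsg.Agent.Kr.A

/-! A solvable permutation group of degree `m` has order at most `3 ^ (m - 1)`. -/

set_option autoImplicit false
set_option linter.unusedSectionVars false

namespace Cfsg.Agent.Kr

open Subgroup Function MulAction
open scoped Pointwise

universe u

theorem chain_mono {α : Type*} [Preorder α] {C : ℕ → α} {c : ℕ} (h : ∀ i < c, C i < C (i + 1)) {i j : ℕ}
    (hij : i ≤ j) (hj : j ≤ c) : C i ≤ C j := by
  induction j, hij using Nat.le_induction with
  | base => rfl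
  | succ j _ ih => exact (ih (by omega)).trans (h j hj).le

theorem exists_chain {α ι : Type*} [Preorder α] [Finite ι] (U : Set ι → α)
    (h : ∀ S i, i ∉ S → U S < U (insert i S)) :
    ∃ C : ℕ → α, (∀ i, ∃ S, C i = U S) ∧ ∀ i < Nat.card ι, C i < C (i + 1) := by
  let e := Finite.equivFin ι
  refine ⟨fun i => U {x | (e x : ℕ) < i}, fun _ => ⟨_, rfl⟩, fun i hi => ?_⟩
  have := h {x | (e x : ℕ) < i} (e.symm ⟨i, hi⟩) (by simp)
  convert this using 2
  ext x
  simp only [Set.mem_ofPred_eq, Set.mem_insert_iff, Equiv.eq_symm_apply, Fin.ext_iff]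
  omega

section
variable {G : Type*} [Group G] [Finite G] {A H : Subgroup G}

theorem two_mul_card_le (h : H < A) : 2 * Nat.card H ≤ Nat.card A := by
  obtain ⟨c, hc⟩ := card_dvd_of_le h.le
  have : ¬ Nat.card A ≤ Nat.card H := fun e => h.ne (eq_of_le_of_card_ge h.le e)
  rcases c with _ | _ | c <;> nlinarith [Nat.card_pos (α := A)]

theorem reg_step [hA : A.Normal] (h : ¬ A ≤ centralizer H) : ∃ K ≤ H,
    Nat.card H ≤ (Nat.card A - Nat.card (A ⊓ centralizer H : Subgroup G)) * Nat.card K ∧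
      2 * Nat.card (A ⊓ centralizer H : Subgroup G) ≤ Nat.card (A ⊓ centralizer K : Subgroup G) := by
  obtain ⟨a, ha, hn⟩ := SetLike.not_le_iff_exists.1 h
  refine ⟨H ⊓ centralizer {a}, inf_le_left, ?_, two_mul_card_le (lt_of_le_of_ne
    (inf_le_inf_left _ (centralizer_le (by exact fun _ h => h.1))) fun e => hn (e.ge (show a ∈ _ from
      ⟨ha, fun g hg => mem_centralizer_singleton_iff.1 hg.2⟩)).2)⟩
  rw [← H4.ncard_conj_orbit_mul H.subtype a]
  refine Nat.mul_le_mul ?_ (Nat.card_le_card_of_injective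
    (fun g => ⟨g.1, g.1.2, mem_centralizer_singleton_iff.2 g.2⟩) fun _ _ e => by
      exact Subtype.ext (Subtype.ext (congrArg (fun y : (H ⊓ centralizer {a} : Subgroup G) => (y : G)) e)))
  change _ ≤ (A : Set G).ncard - ((A ⊓ centralizer H : Subgroup G) : Set G).ncard
  rw [← Set.ncard_sdiff (by exact fun _ h => h.1)]
  refine Set.ncard_le_ncard ?_
  rintro _ ⟨g, rfl⟩
  refine ⟨hA.conj_mem a ha g, fun e => hn fun k hk => ?_⟩
  have := e.2 _ (mul_mem (mul_mem g.2 hk) (inv_mem g.2))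
  simp only [← mul_assoc, coe_subtype, inv_mul_cancel_right, mul_left_inj] at this
  simpa [mul_assoc] using this

theorem reg_bound [A.Normal] {t : ℕ} (ht : t < Nat.card A) (j : ℕ) : ∀ H : Subgroup G, H ⊓ centralizer A = ⊥ →
    t ≤ Nat.card (A ⊓ centralizer H : Subgroup G) →
    Nat.card A < Nat.card (A ⊓ centralizer H : Subgroup G) * 2 ^ (j + 1) → Nat.card H ≤ (Nat.card A - t) ^ j := by
  induction j with
  | zero =>
    intro H h1 _ h3
    rw [inf_eq_left.2 (le_centralizer_iff.1 (inf_eq_left.1 (by_contra fun e => by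
      have := two_mul_card_le (lt_of_le_of_ne inf_le_left e); omega)))] at h1
    simp [h1]
  | succ j ih =>
    intro H h1 h2 h3
    by_cases h : A ≤ centralizer H
    · rw [inf_eq_left.2 (le_centralizer_iff.1 h)] at h1
      rw [h1, card_bot]; exact Nat.pow_pos (by omega)
    · obtain ⟨K, k1, k2, k3⟩ := reg_step h
      rw [pow_succ']
      exact k2.trans (Nat.mul_le_mul (by omega) (ih K (eq_bot_iff.2 (h1 ▸ inf_le_inf_right _ k1)) (by omega)
        (h3.trans_le (by rw [pow_succ', ← mul_assoc, mul_comm _ 2]; exact Nat.mul_le_mul_right _ k3))))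

theorem reg_num {m : ℕ} (h : 3 ≤ m) : 3 * (m * ((m - 1) * (m - 2) ^ (Nat.log 2 m - 1))) ≤ 3 ^ m := by
  by_cases h64 : m < 64
  · interval_cases m <;> decide +kernel
  have h1 := Nat.lt_pow_succ_log_self one_lt_two m
  have h2 := Nat.pow_log_le_self 2 (show m ≠ 0 by omega)
  have h3 : 6 ≤ Nat.log 2 m := Nat.le_log_of_pow_le one_lt_two (by omega)
  generalize Nat.log 2 m = l at *
  have h4 : (l + 1) * (l + 1) + 1 ≤ 2 ^ l := by
    clear h1 h2
    induction l, h3 using Nat.le_induction with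
    | base => norm_num
    | succ l _ ih => rw [pow_succ]; nlinarith
  obtain ⟨l, rfl⟩ : ∃ k, l = k + 1 := ⟨l - 1, by omega⟩
  calc _ ≤ 3 * (m * (m * m ^ l)) := by gcongr <;> omega
    _ = 3 * m ^ (l + 2) := by ring
    _ ≤ 3 * (3 ^ (l + 2)) ^ (l + 2) := by gcongr; exact h1.le.trans (Nat.pow_le_pow_left (by norm_num) _)
    _ = 3 ^ ((l + 2) * (l + 2) + 1) := by rw [← pow_mul, pow_succ']
    _ ≤ _ := Nat.pow_le_pow_right (by norm_num) (h4.trans h2)

theorem perm_reg {Ω : Type*} [Finite Ω] [MulAction G Ω] (hf : ∀ g : G, (∀ x : Ω, g • x = x) → g = 1) [A.Normal]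
    [IsMulCommutative A] (x : Ω) (ht : ∀ y, ∃ a ∈ A, a • x = y) : 3 * Nat.card G ≤ 3 ^ Nat.card Ω := by
  have h1 : stabilizer G x ⊓ centralizer A = ⊥ := eq_bot_iff.2 fun g hg => hf g fun y => by
    obtain ⟨a, ha, rfl⟩ := ht y
    rw [← mul_smul, ← hg.2 a ha, mul_smul, hg.1]
  have h2 : Nat.card A = Nat.card Ω := Nat.card_eq_of_bijective (fun a : A => (a : G) • x) ⟨fun a b e =>
    Subtype.ext (inv_mul_eq_one.1 (mem_bot.1 (h1 ▸ (⟨mem_stabilizer_iff.2 (by rw [mul_smul, inv_smul_eq_iff]; exact e.symm),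
      le_centralizer A (mul_mem (inv_mem a.2) b.2)⟩ : _ ∈ stabilizer G x ⊓ centralizer A)))),
    fun y => let ⟨a, ha, e⟩ := ht y; ⟨⟨a, ha⟩, e⟩⟩
  have h3 : Nat.card G ≤ Nat.card Ω * Nat.card (stabilizer G x) := by
    rw [← (stabilizer G x).index_mul_card, index_stabilizer]
    exact Nat.mul_le_mul_right _ (Set.ncard_le_card _)
  have h4 : 0 < Nat.card (A ⊓ centralizer (stabilizer G x) : Subgroup G) := Nat.card_pos
  have h5 := card_le_of_le (inf_le_left : A ⊓ centralizer (stabilizer G x) ≤ A)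
  by_cases h : A ≤ centralizer (stabilizer G x)
  · rw [inf_eq_left.2 (le_centralizer_iff.1 h)] at h1
    rw [h1, card_bot, mul_one] at h3
    obtain ⟨k, hk⟩ : ∃ k, Nat.card Ω = k + 1 := ⟨Nat.card Ω - 1, by omega⟩
    rw [hk] at h3
    rw [hk, pow_succ']
    exact Nat.mul_le_mul_left _ (h3.trans (Nat.lt_pow_self (by norm_num : 1 < 3)))
  obtain ⟨K, k1, k2, k3⟩ := reg_step h
  have h6 := card_le_of_le (inf_le_left : A ⊓ centralizer K ≤ A)
  have h7 := eq_bot_iff.2 (h1 ▸ inf_le_inf_right (centralizer (A : Set G)) k1)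
  by_cases h8 : Nat.card A = 2
  · have := reg_bound (t := 1) (by omega) 0 K h7 (by omega) (by omega)
    rw [h8] at k2 h2
    rw [← h2] at h3 ⊢
    have : 2 - Nat.card (A ⊓ centralizer (stabilizer G x) : Subgroup G) ≤ 1 := by omega
    nlinarith
  have := reg_bound (t := 2) (by omega) (Nat.log 2 (Nat.card A) - 1) K h7 (by omega) (by
    have := Nat.log_pos one_lt_two (show 2 ≤ Nat.card A by omega)
    rw [Nat.sub_add_cancel this]
    exact (Nat.lt_pow_succ_log_self one_lt_two _).trans_le (by rw [pow_succ']; gcongr; omega))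
  rw [← h2] at h3 ⊢
  exact (Nat.mul_le_mul_left _ (h3.trans (Nat.mul_le_mul_left _ (k2.trans (Nat.mul_le_mul (by omega) this))))).trans
    (reg_num (by omega))

end

theorem perm_aux (k : ℕ) : ∀ (Ω G : Type u) [Finite Ω] [Group G] [Finite G] [Group.IsSolvable G] [MulAction G Ω],
    (∀ g : G, (∀ x : Ω, g • x = x) → g = 1) → Nat.card Ω = k → ∀ (c : ℕ) (C : ℕ → Set Ω),
      (∀ i (g : G), ∀ x ∈ C i, g • x ∈ C i) → (∀ i < c, C i < C (i + 1)) → 3 ^ c * Nat.card G ≤ 3 ^ k := by
  induction k using Nat.strong_induction_on with | _ k ih => ?_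
  intro Ω G _ _ _ _ _ hf hk
  have one : ∀ (Ω' : Type u) [Finite Ω'] [Nonempty Ω'] (H : Subgroup (Equiv.Perm Ω')) [Group.IsSolvable H],
      Nat.card Ω' < k → 3 * Nat.card H ≤ 3 ^ Nat.card Ω' := fun Ω' _ _ H _ h => by
    simpa using ih _ h Ω' H (fun g hg => Subtype.ext (Equiv.ext hg)) rfl 1 (fun i => if i = 0 then ∅ else .univ)
      (fun i g x hx => by split_ifs at * <;> simp_all) (fun i hi => by simp_all [Set.empty_ssubset])
  have split : ∀ (K : Subgroup G) (c : ℕ) (C : ℕ → Set Ω), (∀ i, ∀ g ∈ K, ∀ x ∈ C i, g • x ∈ C i) →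
      (∀ i < c + 1, C i < C (i + 1)) → (C c).Nonempty → 3 ^ (c + 1) * Nat.card K ≤ 3 ^ k := fun K c C h1 h2 h3 => by
    let S : SubMulAction K Ω := ⟨C c, fun g x hx => h1 c g g.2 x hx⟩
    let S' : SubMulAction K Ω := ⟨(C c)ᶜ, fun g x hx e => hx (by
      simpa [Subgroup.smul_def] using h1 c _ g⁻¹.2 _ e)⟩
    have e : Nat.card S + Nat.card S' = k := hk ▸ Set.ncard_add_ncard_compl (C c)
    obtain ⟨x, -, hx⟩ := Set.exists_of_ssubset (h2 c (by omega))
    haveI : Nonempty S' := ⟨⟨x, hx⟩⟩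
    haveI : Nonempty S := h3.to_subtype
    have p1 : 0 < Nat.card S := Nat.card_pos
    have p2 : 0 < Nat.card S' := Nat.card_pos
    haveI := Group.isSolvable_of_surjective (toPermHom K S').rangeRestrict_surjective
    have a1 := one S' (toPermHom K S').range (by omega)
    have a2 := ih _ (by omega) S (toPermHom K S').ker (fun g hg => Subtype.ext (Subtype.ext (hf _ fun y => by
      by_cases hy : y ∈ C c
      · exact congrArg Subtype.val (hg ⟨y, hy⟩)
      · exact congrArg Subtype.val (Equiv.congr_fun g.2 ⟨y, hy⟩)))) rfl c (fun i => Subtype.val ⁻¹' C i)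
      (fun i g x hx => h1 i _ g.1.2 _ hx) fun i hi => by
        obtain ⟨y, y1, y2⟩ := Set.exists_of_ssubset (h2 i (by omega))
        exact ⟨fun _ h => (h2 i (by omega)).le h, fun h => y2 (h (show (⟨y, chain_mono h2 hi (by omega) y1⟩ : S) ∈ _
          from y1))⟩
    rw [card_eq_card_quotient_mul_card_subgroup (toPermHom K S').ker,
      Nat.card_congr (QuotientGroup.quotientKerEquivRange _).toEquiv, ← e, pow_add 3 (Nat.card S), pow_succ]
    nlinarith [Nat.mul_le_mul a1 a2]
  have base : Nonempty Ω → 3 * Nat.card G ≤ 3 ^ k := fun ⟨x⟩ => by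
    have p : 0 < k := hk ▸ Nat.card_pos_iff.2 ⟨⟨x⟩, inferInstance⟩
    rcases subsingleton_or_nontrivial G with h | h
    · rw [Nat.card_unique]; exact Nat.le_self_pow p.ne' 3
    obtain ⟨-, A, -, hA, h0, hc, -⟩ := H1.exists_normal_pGroup (G := G) inferInstance
    have ho : ∀ (g : G) (y : Ω), g • orbit A y = orbit A (g • y) := fun g y => by
      ext z
      simp only [Set.mem_smul_set_iff_inv_smul_mem, mem_orbit_iff]
      exact ⟨fun ⟨a, e⟩ => ⟨⟨_, hA.conj_mem _ a.2 g⟩, by simp [Subgroup.smul_def, mul_smul, ← eq_inv_smul_iff, ← e]⟩,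
        fun ⟨a, e⟩ => ⟨⟨_, hA.conj_mem' _ a.2 g⟩, by simp [Subgroup.smul_def, mul_smul, ← e]⟩⟩
    let O : SubMulAction G (Set Ω) := ⟨Set.range (orbit A), by rintro g _ ⟨y, rfl⟩; exact ⟨_, (ho g y).symm⟩⟩
    let o : Ω → O := fun y => ⟨orbit A y, y, rfl⟩
    have hs : Surjective o := by rintro ⟨_, y, rfl⟩; exact ⟨y, rfl⟩
    haveI : Nonempty O := ⟨o x⟩
    rcases subsingleton_or_nontrivial O with h1 | h1
    · exact hk ▸ perm_reg hf (A := A) x fun y => by
        obtain ⟨a, e⟩ : y ∈ orbit A x := (congrArg Subtype.val (h1.elim (o y) (o x))).le (mem_orbit_self y)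
        exact ⟨a, a.2, e⟩
    haveI := Group.isSolvable_of_surjective (toPermHom G O).rangeRestrict_surjective
    have a1 := one O (toPermHom G O).range (hk ▸ lt_of_le_of_ne (Nat.card_le_card_of_surjective o hs) fun e =>
      h0 (eq_bot_iff.2 fun a ha => hf a fun y => (hs.bijective_of_nat_card_le e.ge).1
        (Subtype.ext (orbit_smul (⟨a, ha⟩ : A) y))))
    obtain ⟨C, c1, c2⟩ := exists_chain (fun S : Set O => o ⁻¹' S) fun S i hi => by
      obtain ⟨y, rfl⟩ := hs i
      exact ⟨fun _ h => .inr h, fun h => hi (h (show y ∈ _ from .inl rfl))⟩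
    obtain ⟨c, hc⟩ : ∃ c, Nat.card O = c + 2 := ⟨_, (Nat.sub_add_cancel Finite.one_lt_card).symm⟩
    rw [hc] at c2 a1
    have a2 := split (toPermHom G O).ker (c + 1) C (fun i g hg y hy => by
      obtain ⟨S, e⟩ := c1 i
      have : o (g • y) = o y := (Subtype.ext (ho g y).symm).trans (Equiv.congr_fun hg (o y))
      rw [e] at hy ⊢
      exact Set.mem_preimage.2 (this ▸ hy)) c2 (Set.nonempty_of_ssubset' (c2 c (by omega)))
    rw [card_eq_card_quotient_mul_card_subgroup (toPermHom G O).ker,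
      Nat.card_congr (QuotientGroup.quotientKerEquivRange _).toEquiv]
    exact le_trans (by rw [← mul_assoc]; exact Nat.mul_le_mul_right _ a1) a2
  intro c C h1 h2
  rcases c with _ | c
  · rcases isEmpty_or_nonempty Ω with h | h
    · haveI : Subsingleton G := ⟨fun a b => (hf a h.elim).trans (hf b h.elim).symm⟩
      simpa [Nat.card_unique] using Nat.one_le_pow _ _ (by norm_num)
    · have := base h; omega
  by_cases h3 : (C c).Nonempty
  · simpa using split ⊤ c C (fun i g _ => h1 i g) h2 h3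
  obtain rfl : c = 0 := by
    by_contra e
    obtain ⟨c, rfl⟩ := Nat.exists_eq_succ_of_ne_zero e
    exact h3 (Set.nonempty_of_ssubset' (h2 c (by omega)))
  simpa using base (Set.nonempty_of_ssubset' (h2 0 (by omega))).to_type

theorem perm_le {Ω : Type u} [Finite Ω] [Nonempty Ω] (H : Subgroup (Equiv.Perm Ω)) [Group.IsSolvable H] :
    3 * Nat.card H ≤ 3 ^ Nat.card Ω := by
  simpa using perm_aux _ Ω H (fun g hg => Subtype.ext (Equiv.ext hg)) rfl 1 (fun i => if i = 0 then ∅ else .univ)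
    (fun i g x hx => by split_ifs at * <;> simp_all) (fun i hi => by simp_all [Set.empty_ssubset])

end Cfsg.Agent.Kr
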