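import Cfsg.Agent.Kr.B

/-! Numerical inequalities and special bounds for the number of commuting pairs. -/

set_option autoImplicit false
set_option linter.unusedSectionVars false

namespace Cfsg.Agent.Kr

open Subgroup Function
open scoped IsMulCommutative

theorem le_three_pow (n : ℕ) : n + 1 ≤ 3 ^ n := Nat.lt_pow_self (by norm_num)

theorem num1 {t f s e : ℕ} (h1 : t ≤ f) (h2 : s ≤ e) (h3 : 1 ≤ e) (h4 : 1 ≤ f) : t * 3 ^ s ≤ 3 ^ (f * e) := by
  obtain ⟨f, rfl⟩ := Nat.exists_eq_add_of_le' h4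
  calc _ ≤ 3 ^ (f * e) * 3 ^ e := Nat.mul_le_mul (h1.trans ((le_three_pow f).trans
        (Nat.pow_le_pow_right (by norm_num) (by nlinarith)))) (Nat.pow_le_pow_right (by norm_num) h2)
    _ = _ := by ring

theorem num2 {t f e a : ℕ} (h0 : 1 ≤ t) (h1 : t ≤ f) (h2 : a + 1 ≤ 2 ^ f) (h3 : 1 ≤ e) :
    a * (t * t + 2) ≤ 3 ^ (f * e) * t := by
  refine le_trans ?_ (Nat.mul_le_mul_right _ (Nat.pow_le_pow_right (by norm_num) (show f ≤ _ by nlinarith)))
  by_cases h : f < 5
  · interval_cases f <;> interval_cases t <;> omega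
  have : ∀ n, 5 ≤ n → 2 ^ n * (n + 2) ≤ 3 ^ n := fun n hn => by
    induction n, hn using Nat.le_induction with
    | base => norm_num
    | succ n _ ih => rw [pow_succ, pow_succ]; nlinarith [Nat.zero_le (2 ^ n * n), Nat.zero_le (2 ^ n)]
  calc _ ≤ 2 ^ f * ((f + 2) * t) := Nat.mul_le_mul (by omega) (by nlinarith)
    _ ≤ _ := by rw [← mul_assoc]; exact Nat.mul_le_mul_right _ (this f (by omega))

theorem num3 {t f s e a : ℕ} (h1 : t ≤ f) (h2 : s ≤ e) (h3 : 3 ≤ s) (h4 : 2 ≤ f) (h5 : a + 1 ≤ 2 ^ f) :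
    t * 3 ^ s * (a * (s * s + 2)) ≤ 3 * 3 ^ (f * e) := by
  obtain ⟨y, rfl⟩ := Nat.exists_eq_add_of_le' h4
  obtain ⟨x, rfl⟩ := Nat.exists_eq_add_of_le' (h3.trans h2)
  have a1 : ∀ x, (x + 3) * (x + 3) + 2 ≤ 11 * 3 ^ x := fun x => by
    induction x with
    | zero => norm_num
    | succ x ih => rw [pow_succ]; nlinarith
  have a2 : (y + 2) * a ≤ 6 * 27 ^ y := by
    rcases y with _ | y
    · omega
    · have b1 : 2 ^ y ≤ 3 ^ y := Nat.pow_le_pow_left (by norm_num) _
      have b2 : 27 ^ y = 3 ^ y * 3 ^ y * 3 ^ y := by rw [← mul_pow, ← mul_pow]; rfl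
      have b3 := le_three_pow y
      rw [pow_succ, b2]
      have b4 : a ≤ 8 * 3 ^ y := by simp only [pow_succ] at h5; omega
      nlinarith [Nat.mul_le_mul b4 (show y + 1 + 2 ≤ 3 * 3 ^ y by omega), Nat.mul_le_mul_left (3 ^ y * 3 ^ y)
        (show 1 ≤ 3 ^ y by omega)]
  calc _ ≤ (y + 2) * 3 ^ (x + 3) * (a * (11 * 3 ^ x)) := by
        gcongr
        · norm_num
        · exact le_trans (by nlinarith) (a1 x)
    _ = (y + 2) * a * 11 * 3 ^ (2 * x + 3) := by ring
    _ ≤ 6 * 27 ^ y * 11 * 3 ^ (2 * x + 3) := by gcongr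
    _ ≤ 81 * 27 ^ y * 3 ^ (2 * x + 3) := by gcongr ?_ * _; omega
    _ = 3 * 3 ^ (2 * x + 3 * y + 6) := by rw [show 27 ^ y = 3 ^ (3 * y) by rw [pow_mul]; rfl]; ring
    _ ≤ _ := by gcongr; · norm_num
                · nlinarith

theorem num4 {r m : ℕ} (h : 5 ≤ r ∧ 1 ≤ m ∨ r = 3 ∧ 2 ≤ m) : (3 * r) ^ (2 * m) ≤ 3 ^ r ^ m := by
  rcases h with ⟨h, hm⟩ | ⟨rfl, hm⟩
  · have : (3 * r) ^ 2 ≤ 3 ^ r := by
      induction r, h using Nat.le_induction with
      | base => norm_num
      | succ n _ ih => rw [pow_succ 3]; nlinarith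
    obtain ⟨m, rfl⟩ := Nat.exists_eq_add_of_le' hm
    rw [pow_mul]
    refine (Nat.pow_le_pow_left this _).trans ?_
    rw [← pow_mul, pow_succ' r]
    exact Nat.pow_le_pow_right (by norm_num) (Nat.mul_le_mul_left _ (Nat.lt_pow_self (by omega)))
  · rw [← pow_two, ← pow_mul]
    refine Nat.pow_le_pow_right (by norm_num) ?_
    induction m, hm using Nat.le_induction with
    | base => norm_num
    | succ n _ ih => rw [pow_succ]; omega

theorem num5 (m : ℕ) : 2 * m ≤ 2 ^ m := by
  rcases m with _ | m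
  · simp
  · rw [pow_succ']; exact Nat.mul_le_mul_left _ Nat.lt_two_pow_self

theorem num6 {a b q n s t : ℕ} (h1 : 3 * a ≤ 3 ^ (s + 1) * q) (h2 : 3 * b ≤ 3 ^ (t + 1) * n) :
    3 * (a * b) ≤ 3 ^ ((s + 1) * (t + 1)) * (q * n) := by
  refine Nat.le_of_mul_le_mul_left ?_ three_pos
  calc _ = 3 * a * (3 * b) := by ring
    _ ≤ _ := Nat.mul_le_mul h1 h2
    _ = 3 * (3 ^ (s + t + 1) * (q * n)) := by ring
    _ ≤ _ := by gcongr; · norm_num
                · nlinarith

variable {G V : Type*} [Group G] [Finite G] [AddCommGroup V] [Finite V] {ρ : Representation ℤ G V}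

theorem three_mul_card_le {A H : Subgroup G} (h : H < A) (o : ¬ 2 ∣ Nat.card A) : 3 * Nat.card H ≤ Nat.card A := by
  obtain ⟨c, hc⟩ := card_dvd_of_le h.le
  have := H1.card_lt_of_lt h
  rcases c with _ | _ | _ | c
  · omega
  · omega
  · omega
  · nlinarith

theorem cp_nine (hf : Injective ρ) (hV : Nat.card V = 9) : cp G ≤ 9 * Nat.card G := by
  have h2 : ∀ v : V, -v = v → v = 0 := fun v e => H4.eq_zero_of_coprime_smul (n := 2) (by rw [hV]; norm_num)
    (by rw [two_nsmul]; exact neg_eq_iff_add_eq_zero.1 e)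
  have h := cp_le_of_cent (ρ ⁻¹' {1, -1}) (a := 1) (c := 8) fun g hg => by
    simp only [Set.mem_preimage, Set.mem_insert_iff, Set.mem_singleton_iff, not_or, LinearMap.ext_iff,
      not_forall, Module.End.one_apply, LinearMap.neg_apply] at hg
    obtain ⟨⟨v, hv⟩, w, hw⟩ := hg
    obtain ⟨u, h1, h3⟩ : ∃ u, ρ g u ≠ u ∧ ρ g u ≠ -u := by
      by_cases e : ρ g v = -v
      · by_cases e' : ρ g w = w
        · refine ⟨v + w, fun h => hv (by rwa [map_add, e', add_left_inj] at h), fun h => hw ?_⟩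
          rwa [map_add, e, neg_add, add_right_inj] at h
        · exact ⟨w, e', hw⟩
      · exact ⟨v, hv, e⟩
    have h0 : u ≠ 0 := by rintro rfl; simp at h1
    have inj : ∀ k : G, ρ k = 1 → k = 1 := (injective_iff_map_eq_one _).1 hf
    have fx : ∀ k : G, Commute k g → ρ k u = u → k = 1 := fun k c e => inj k (by
      classical
      have a1 : ({0, u, -u, ρ g u} : Finset V).card = 4 := by
        have : ρ g u ≠ 0 := fun e => h0 (by rw [← ρ.inv_self_apply g u, e, map_zero])
        have : u ≠ -u := fun e => h0 (h2 u e.symm)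
        rw [Finset.card_eq_four]
        exact ⟨0, u, -u, ρ g u, h0.symm, by simpa, by symm; assumption, this, h1.symm, h3.symm, rfl⟩
      have a2 : 4 ≤ Nat.card (H4.fixS (ρ k)).toAddSubgroup := by
        rw [← a1, ← Set.ncard_coe_finset]
        refine Set.ncard_le_ncard (t := (H4.fixS (ρ k) : Set V)) fun x hx => H4.mem_fixS.2 ?_
        simp only [Finset.coe_insert, Finset.coe_singleton, Set.mem_insert_iff, Set.mem_singleton_iff] at hx
        rcases hx with rfl | rfl | rfl | rfl
        · simp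
        · exact e
        · simp [e]
        · rw [← Module.End.mul_apply, ← map_mul, c.eq, map_mul, Module.End.mul_apply, e]
      have a3 := hV ▸ (H4.fixS (ρ k)).toAddSubgroup.card_addSubgroup_dvd_card
      have a4 := AddSubgroup.eq_top_of_card_eq (H4.fixS (ρ k)).toAddSubgroup (by
        have := Nat.le_of_dvd (by norm_num) a3
        rw [hV]
        generalize Nat.card (H4.fixS (ρ k)).toAddSubgroup = c at *
        interval_cases c <;> omega)
      exact LinearMap.ext fun x => H4.mem_fixS.1 (a4.ge (AddSubgroup.mem_top x)))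
    have := Nat.card_le_card_of_injective (β := {v : V // v ≠ 0}) (fun k : centralizer {g} => ⟨ρ k u, fun e =>
      h0 (by rw [← ρ.inv_self_apply k u, e, map_zero])⟩) fun k l e => inv_mul_eq_one.1 (Subtype.ext (fx _
        (mem_centralizer_singleton_iff.1 (k⁻¹ * l).2) (by
          rw [coe_mul, map_mul, Module.End.mul_apply, ← show ρ k u = ρ l u from congrArg Subtype.val e]
          exact ρ.inv_self_apply _ _)))
    have e : Nat.card {v : V // v ≠ 0} = ({0}ᶜ : Set V).ncard := rfl
    rw [e, Set.ncard_compl, hV, Set.ncard_singleton] at this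
    omega
  have h3 : (ρ ⁻¹' {1, -1}).ncard ≤ 2 := (Set.ncard_le_ncard_of_injOn ρ (fun _ h => h) hf.injOn
    ((Set.finite_singleton _).insert _)).trans (by simpa using Set.ncard_insert_le 1 {-1})
  have h4 : 0 < (ρ ⁻¹' {1, -1}).ncard := (Set.ncard_pos (Set.toFinite _)).2 ⟨1, .inl (map_one ρ)⟩
  rw [cp_eq] at h ⊢
  refine Nat.mul_le_mul_right _ (Nat.le_of_lt_succ (lt_of_mul_lt_mul_right (a := Nat.card G) ?_ (Nat.zero_le _)))
  nlinarith

theorem cp_le_ab (A : Subgroup G) (h : ∀ g ∉ A, 3 * Nat.card (A ⊓ centralizer {g} : Subgroup G) ≤ Nat.card A) :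
    3 * cp G ≤ Nat.card A * Nat.card A * (A.index * A.index + 2) := by
  classical
  have := Fintype.ofFinite G
  have e1 : ∑ g : G, (if g ∈ A then Nat.card (centralizer ({g} : Set G)) else 0) =
      ∑ g : G, Nat.card (A ⊓ centralizer {g} : Subgroup G) := by
    have : ∀ K : Subgroup G, Nat.card K = ∑ h, if h ∈ K then 1 else 0 := fun K => by
      simp [Fintype.card_subtype]
    simp only [this]
    rw [Finset.sum_comm]
    refine Finset.sum_congr rfl fun g _ => ?_
    split_ifs with hg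
    · exact Finset.sum_congr rfl fun k _ => by simp [hg, mem_centralizer_singleton_iff, eq_comm]
    · simp [hg]
  have e2 : 3 * cp G = ∑ g : G, 3 * (Nat.card (A ⊓ centralizer {g} : Subgroup G) +
      if g ∈ A then 0 else Nat.card (centralizer ({g} : Set G))) := by
    rw [← Finset.mul_sum, Finset.sum_add_distrib, ← e1, ← Finset.sum_add_distrib, cp_eq_sum]
    congr 2; ext g; split_ifs <;> simp
  have e3 : (Finset.univ.filter (· ∈ A)).card = Nat.card A := by simp [Fintype.card_subtype]
  have e4 := Finset.card_filter_add_card_filter_not (s := Finset.univ) (· ∈ A)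
  rw [Finset.card_univ, ← Nat.card_eq_fintype_card, ← A.index_mul_card, e3] at e4
  rw [e2, ← Finset.sum_filter_add_sum_filter_not _ (· ∈ A)]
  refine (add_le_add (Finset.sum_le_card_nsmul _ _ (3 * Nat.card A) fun g hg => ?_)
    (Finset.sum_le_card_nsmul _ _ ((A.index + 1) * Nat.card A) fun g hg => ?_)).trans ?_
  · rw [if_pos (Finset.mem_filter.1 hg).2]
    exact Nat.mul_le_mul_left _ (card_le_of_le inf_le_left)
  · have h1 := h g (Finset.mem_filter.1 hg).2
    have h2 := H1.card_inf_mul_relIndex A (centralizer {g})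
    have h3 : A.relIndex (centralizer {g}) ≤ A.index := relIndex_top_right A ▸ relIndex_le_of_le_right le_top
      (by rw [relIndex_top_right]; exact A.index_ne_zero_of_finite)
    rw [if_neg (Finset.mem_filter.1 hg).2, ← h2]
    nlinarith [Nat.mul_le_mul h1 h3]
  · rw [e3, smul_eq_mul, smul_eq_mul]
    nlinarith [congrArg (· * ((A.index + 1) * Nat.card A)) e4]

/-- Knörr's bound for a module with a point with abelian stabilizer. -/
theorem T_le_kgv {p : ℕ} [Fact p.Prime] (hf : Injective ρ) (hV : ∀ v : V, p • v = 0) (hG : ¬ p ∣ Nat.card G) (v : V)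
    (hv : ∀ a b, ρ a v = v → ρ b v = v → a * b = b * a) : T ρ False ≤ Nat.card V * Nat.card G := by
  let φ : G →* MulAut (Multiplicative V) :=
    { toFun g := ⟨⟨fun v => .ofAdd (ρ g v.toAdd), fun v => .ofAdd (ρ g⁻¹ v.toAdd), fun v => by simp, fun v => by simp⟩,
        fun a b => by simp⟩
      map_one' := by ext; simp
      map_mul' _ _ := by ext; simp }
  let X := Multiplicative V ⋊[φ] G
  haveI : Finite X := .of_equiv _ SemidirectProduct.equivProd.symm
  let A : Subgroup X := SemidirectProduct.inl.range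
  let H : Subgroup X := SemidirectProduct.inr.range
  haveI : A.Normal := by simp only [A, SemidirectProduct.range_inl_eq_ker_rightHom]; infer_instance
  have cA : Nat.card A = Nat.card V := (Nat.card_congr (MonoidHom.ofInjective SemidirectProduct.inl_injective).toEquiv).symm
  have cH : Nat.card H = Nat.card G := (Nat.card_congr (MonoidHom.ofInjective SemidirectProduct.inr_injective).toEquiv).symm
  have hc : A.IsComplement' H := isComplement'_of_card_mul_and_disjoint
    (by rw [cA, cH]; exact (SemidirectProduct.card (φ := φ)).symm) (disjoint_def.2 (by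
      rintro _ ⟨a, rfl⟩ ⟨g, e⟩
      rw [← e, show g = 1 from congrArg SemidirectProduct.right e, map_one]))
  have h1 : ∀ a ∈ A, a ^ p = 1 := by
    rintro _ ⟨a, rfl⟩
    rw [← map_pow, show a ^ p = 1 from hV a.toAdd, map_one]
  have h2 : ¬ p ∣ A.index := by rwa [hc.symm.index_eq_card, cH]
  have h3 : centralizer (A : Set X) = A := le_antisymm (fun x hx => ⟨x.left, by
    have : x.right = 1 := hf (LinearMap.ext fun w => by
      have : .ofAdd w * φ 1 x.left = x.left * φ x.right (.ofAdd w) :=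
        congrArg SemidirectProduct.left (hx _ ⟨.ofAdd w, rfl⟩)
      rw [map_one, MulAut.one_apply, mul_comm, mul_right_inj] at this
      rw [map_one]; exact this.symm)
    rw [← x.inl_left_mul_inr_right, this]; simp⟩) (by
      rintro _ ⟨a, rfl⟩ _ ⟨b, rfl⟩
      rw [← map_mul, ← map_mul, mul_comm])
  obtain ⟨_, h4, -⟩ := H4.kgv_setting p A h1 h2 h3 hc
  have h5 := H4.kgv_abelian p A h1 h2 h3 hc (v := .inl (.ofAdd v)) ⟨_, rfl⟩ (by
    have : ∀ a : G, SemidirectProduct.inr a ∈ centralizer {(.inl (.ofAdd v) : X)} → ρ a v = v := fun a ha => by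
      have : φ a (.ofAdd v) = .ofAdd v := by
        simpa using congrArg SemidirectProduct.left (mem_centralizer_singleton_iff.1 ha)
      exact this
    rintro _ ⟨⟨a, rfl⟩, ha⟩ _ ⟨⟨b, rfl⟩, hb⟩
    rw [← map_mul, ← map_mul, hv a b (this a ha) (this b hb)])
  have h6 := cp_eq_of_compl A hc h4
  have h7 : T ρ False ≤ T (res (H4.conjRep A) H.subtype) False := T_le_of_inj SemidirectProduct.inr.rangeRestrict
    (AddMonoidHom.toIntLinearMap (MonoidHom.toAdditiveRight SemidirectProduct.inl.rangeRestrict))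
    (fun _ _ e => SemidirectProduct.inr_injective (congrArg Subtype.val e))
    (fun _ _ e => SemidirectProduct.inl_injective (φ := φ) (congrArg Subtype.val e))
    fun g w => Subtype.ext (((SemidirectProduct.inl_aut (φ := φ) g (.ofAdd w)).trans (by rw [map_inv])).trans rfl :)
  rw [cp_eq, SemidirectProduct.card, cA] at h6
  refine h7.trans (Nat.le_of_mul_le_mul_left ?_ (Nat.card_pos (α := V)))
  rw [← h6]
  exact Nat.mul_le_mul_right _ (cA ▸ h5)

end Cfsg.Agent.Kr
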