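import Cfsg.Agent.Kr.C

/-! Groups of class two over a central subgroup embedded in a field. -/

set_option autoImplicit false
set_option linter.unusedSectionVars false

namespace Cfsg.Agent.Kr

open Subgroup Function
open scoped commutatorElement

variable {G K : Type*} [Group G] [Finite G] [Field K] {A D E L : Subgroup G} (α : A →* K)

/-- the character `x ↦ α ⁅d, x⁆` -/
def chi (hE : E ≤ centralizer A) (d : G) (h : ∀ x ∈ E, ⁅d, x⁆ ∈ A) : E →* K where
  toFun x := α ⟨_, h x x.2⟩
  map_one' := (congrArg α (Subtype.ext (commutatorElement_one_right d))).trans α.map_one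
  map_mul' x y := by
    rw [← map_mul]; congr 1; ext
    calc ⁅d, (x * y : G)⁆ = ⁅d, (x : G)⁆ * (x * ⁅d, (y : G)⁆) * (x : G)⁻¹ := by simp [commutatorElement_def, mul_assoc]
      _ = ⁅d, (x : G)⁆ * ⁅d, (y : G)⁆ := by rw [← hE x.2 _ (h y y.2)]; group

theorem chi_inj (hα : Injective α) (hE : E ≤ centralizer A) {d d' : G} {h h'} (e : chi α hE d h = chi α hE d' h') :
    d⁻¹ * d' ∈ centralizer (E : Set G) := fun x hx => by
  have : ⁅d, x⁆ = ⁅d', x⁆ := congrArg Subtype.val (hα (DFunLike.congr_fun e ⟨x, hx⟩))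
  simp only [commutatorElement_def, mul_left_inj] at this
  calc _ = d⁻¹ * (d * x * d⁻¹) * d' := by group
    _ = _ := by rw [this]; group

theorem pair_le (hα : Injective α) (hE : E ≤ centralizer A) (h : ⁅D, E⁆ ≤ A) (hL : L ≤ centralizer D) :
    (centralizer E).relIndex D ≤ L.relIndex E := by
  have := Fintype.ofFinite (E ⧸ L.subgroupOf E)
  let χ : D → E →* K := fun d => chi α hE d fun x hx => h (commutator_mem_commutator d.2 hx)
  have h1 : Injective fun i : D ⧸ (centralizer E).subgroupOf D => χ i.out := fun i j e => by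
    rw [← i.out_eq, ← j.out_eq]; exact QuotientGroup.eq.2 (chi_inj α hα hE e)
  have h2 := (linearIndependent_monoidHom E K).comp _ h1
  have h3 := LinearIndependent.of_comp (v := fun (i : D ⧸ (centralizer E).subgroupOf D) (q : E ⧸ L.subgroupOf E) =>
    χ i.out q.out) (LinearMap.funLeft K K QuotientGroup.mk) (by
      refine (congrArg (fun v => LinearIndependent K v) ?_).mpr h2
      ext i x
      obtain ⟨l, hl⟩ := QuotientGroup.mk_out_eq_mul (L.subgroupOf E) x
      have : χ i.out l = 1 := (congrArg α (Subtype.ext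
        (commutatorElement_eq_one_iff_mul_comm.2 (hL l.2 _ i.out.2)))).trans α.map_one
      simp [LinearMap.funLeft_apply, hl, this])
  have := Fintype.ofFinite (D ⧸ (centralizer E).subgroupOf D)
  simpa [relIndex, index] using h3.fintype_card_le_finrank

theorem isSquare_relIndex (hα : Injective α) (hA : A ≤ E) (hE : E ≤ centralizer A) (h : ⁅E, E⁆ ≤ A)
    (hZ : E ⊓ centralizer E ≤ A) : IsSquare (A.relIndex E) := by
  obtain ⟨L, hAL, ⟨h1, h2⟩, hm⟩ := Finite.exists_le_maximal (p := fun L : Subgroup G => L ≤ E ∧ L ≤ centralizer L)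
    (a := A) ⟨hA, hA.trans hE⟩
  have h3 : centralizer L ⊓ E = L := le_antisymm (fun x hx => hm (y := L ⊔ zpowers x)
    ⟨sup_le h1 (zpowers_le.2 hx.2), ?_⟩ le_sup_left (mem_sup_right (mem_zpowers x))) (le_inf h2 h1)
  · have a1 := pair_le α hα (h1.trans hE) ((commutator_mono le_rfl h1).trans h) (le_centralizer_iff.1 hE)
    have a2 := pair_le α hα hE ((commutator_mono h1 le_rfl).trans h) h2
    rw [← inf_relIndex_right, h3] at a1
    rw [← inf_relIndex_right, show centralizer E ⊓ L = A from le_antisymm (fun x hx => hZ ⟨h1 hx.2, hx.1⟩)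
      (le_inf (le_centralizer_iff.1 hE) hAL)] at a2
    exact ⟨_, by rw [← relIndex_mul_relIndex A L E hAL h1, a1.antisymm a2]⟩
  · have : L ≤ centralizer (zpowers x) := le_centralizer_iff.1 (zpowers_le.2 hx.1)
    refine sup_le (le_centralizer_iff.1 (sup_le h2 (zpowers_le.2 hx.1))) (le_centralizer_iff.1 (sup_le this ?_))
    exact le_centralizer _

theorem le_of_comm_le [Group.IsSolvable G] [hD : D.Normal] (h : ∀ E ≤ D, E.Normal → ⁅E, E⁆ ≤ A → E ≤ A) : D ≤ A := by
  obtain ⟨n, hn⟩ := (Group.isSolvable_def G).1 inferInstance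
  have : ∀ n (E : Subgroup G), E ≤ D → E.Normal → ∀ m, E ≤ derivedSeries G m → derivedSeries G (m + n) = ⊥ → E ≤ A :=
    fun n => by
      induction n with
      | zero => exact fun E _ _ m e e' => (e.trans e'.le).trans bot_le
      | succ n ih => exact fun E a _ m e e' => h E a ‹_› (ih _ ((commutator_le_left _ _).trans a) inferInstance (m + 1)
          (commutator_mono e e) (by rwa [add_assoc, add_comm 1]))
  exact this n D le_rfl hD 0 le_top (by rwa [zero_add])

theorem center_le [A.Normal] (hm : ∀ B : Subgroup G, B.Normal → B ≤ centralizer B → A ≤ B → B ≤ A) [E.Normal]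
    (hA : A ≤ E) (hE : E ≤ centralizer A) : E ⊓ centralizer E ≤ A :=
  hm _ inferInstance (inf_le_right.trans (centralizer_le fun _ h => h.1)) (le_inf hA (le_centralizer_iff.1 hE))

theorem sup_comm_le [A.Normal] [D.Normal] (h1 : ⁅D, L⁆ ≤ A) (h2 : ⁅E, L⁆ ≤ A) : ⁅D ⊔ E, L⁆ ≤ A := by
  rw [commutator_le]
  intro x hx y hy
  obtain ⟨d, hd, f, hf, rfl⟩ := mem_sup_of_normal_left.1 hx
  rw [show ⁅d * f, y⁆ = d * ⁅f, y⁆ * d⁻¹ * ⁅d, y⁆ by simp [commutatorElement_def, mul_assoc]]
  exact mul_mem (Normal.conj_mem ‹_› _ (h2 (commutator_mem_commutator hf hy)) _) (h1 (commutator_mem_commutator hd hy))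

theorem exists_F [Group.IsSolvable G] (hα : Injective α) [A.Normal] (h0 : A ≤ centralizer A)
    (hm : ∀ B : Subgroup G, B.Normal → B ≤ centralizer B → A ≤ B → B ≤ A) : ∃ F : Subgroup G, F.Normal ∧ A ≤ F ∧
      F ≤ centralizer A ∧ ⁅F, F⁆ ≤ A ∧ ∀ D : Subgroup G, D.Normal → D ≤ centralizer A → ⁅D, F⁆ ≤ A → D ≤ F := by
  obtain ⟨F, h1, ⟨_, h2, h3⟩, hF⟩ := Finite.exists_le_maximal
    (p := fun F : Subgroup G => F.Normal ∧ F ≤ centralizer A ∧ ⁅F, F⁆ ≤ A) (a := A) ⟨‹_›, h0, commutator_le_left _ _⟩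
  refine ⟨F, ‹_›, h1, h2, h3, fun D _ d1 d2 => ?_⟩
  have a1 := pair_le α hα h2 (sup_comm_le d2 h3) (le_centralizer_iff.1 (sup_le d1 h2))
  have a2 : centralizer F ⊓ (D ⊔ F) ≤ A := le_of_comm_le fun E e1 _ e2 => by
    have e3 : ⁅E, F⁆ ≤ A := (commutator_eq_bot_iff_le_centralizer.2 (e1.trans inf_le_left)).le.trans bot_le
    have e4 : ⁅E ⊔ F, E ⊔ F⁆ ≤ A := sup_comm_le ((commutator_comm _ _).trans_le (sup_comm_le e2
      ((commutator_comm _ _).trans_le e3))) ((commutator_comm _ _).trans_le (sup_comm_le e3 h3))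
    exact (le_inf (le_sup_left.trans (hF ⟨inferInstance, sup_le (e1.trans (inf_le_right.trans (sup_le d1 h2))) h2, e4⟩
      le_sup_right)) (e1.trans inf_le_left)).trans (center_le hm h1 h2)
  rw [← inf_relIndex_right] at a1
  have a3 := (relIndex_le_of_le_left a2 index_ne_zero_of_finite).trans a1
  have b1 := H1.card_mul_relIndex_of_le h1
  have b2 := H1.card_mul_relIndex_of_le (h1.trans (le_sup_right (a := D)))
  exact le_sup_left.trans (eq_of_le_of_card_ge le_sup_right (by nlinarith)).ge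

end Cfsg.Agent.Kr
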