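import Cfsg.Agent.H3.BlkMisc
import Cfsg.Agent.H4.Extend
import Cfsg.Agent.H4.Degree
import Cfsg.Agent.H1.Hall
import Cfsg.Agent.H5.Induce

/-! Characters over an invariant character of a normal subgroup. -/

set_option autoImplicit false
set_option linter.unusedSectionVars false
set_option linter.style.haveILetI false

namespace Cfsg.Agent.Kr.E

open Cfsg Cfsg.Agent.H3 Cfsg.Agent.H4 Cfsg.Agent.H5 Module Subgroup
open scoped ComplexConjugate commutatorElement

universe u

variable {G : Type u} [Group G] [Finite G] {N : Subgroup G} [N.Normal] {θ : N → ℂ}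

/-- a central extension to which `θ` extends -/
structure Cov {A : Type*} [Group A] (θ : N → ℂ) (π : A →* G) (ι : N →* A) (η : A → ℂ) : Prop where
  irr : IsIrrCharacter N θ
  surj : Function.Surjective π
  cen : π.ker ≤ center A
  exp : ∀ z ∈ π.ker, z ^ (Nat.card N * Nat.card N) = 1
  pi : ∀ n, π (ι n) = n
  ch : IsCharacter A η
  res : ∀ n, η (ι n) = θ n

theorem exists_cov (hθ : IsIrrCharacter N θ) (h : ∀ g, conjFun N θ g = θ) :
    ∃ (A : Type u) (_ : Group A) (_ : Finite A) (π : A →* G) (ι : N →* A) (η : A → ℂ),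
      ι.range.Normal ∧ Cov θ π ι η := by
  have hd := hθ.charDegree_dvd_card
  have hd' := hθ.cast_charDegree
  have hd0 := hθ.charDegree_pos
  obtain ⟨d, ρ, hρ, rfl⟩ := id hθ
  rw [Representation.char_one, Nat.cast_inj] at hd'
  rw [hd'] at hd hd0
  let δ : Tl ρ →* ℂˣ := (Units.map LinearMap.det).comp ((MonoidHom.snd _ _).comp (Tl ρ).subtype)
  have d1 : ∀ c, δ (tlScal ρ c) = c ^ finrank ℂ (Fin d → ℂ) := fun c => Units.ext (by
    change LinearMap.det ((c : ℂ) • (LinearMap.id : _ →ₗ[ℂ] Fin d → ℂ)) = _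
    rw [LinearMap.det_smul, LinearMap.det_id, mul_one, Units.val_pow_eq_pow_val])
  let π := (tlProj ρ).comp (δ ^ Nat.card N).ker.subtype
  have k : ∀ z ∈ π.ker, ∃ c, c ^ (finrank ℂ (Fin d → ℂ) * Nat.card N) = 1 ∧ tlScal ρ c = z :=
    fun z hz => by
      obtain ⟨c, hc⟩ := exists_scal_of_proj ρ hz
      refine ⟨c, ?_, hc⟩
      rw [pow_mul, ← d1, hc]
      exact z.2
  haveI : NeZero (finrank ℂ (Fin d → ℂ) * Nat.card N) := ⟨mul_ne_zero hd0.ne' Nat.card_pos.ne'⟩
  haveI : Finite π.ker := Finite.of_surjective (fun c : rootsOfUnity _ ℂ =>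
    (⟨⟨tlScal ρ c, (congrArg (· ^ Nat.card N) (d1 c)).trans ((pow_mul _ _ _).symm.trans c.2)⟩, rfl⟩ :
      π.ker)) fun z =>
      let ⟨c, h1, h2⟩ := k z z.2
      ⟨⟨c, h1⟩, Subtype.ext (Subtype.ext h2)⟩
  refine ⟨_, _, π.finite_iff_finite_ker_range.2 ⟨inferInstance, inferInstance⟩, π,
    (tlEmb ρ).codRestrict _ fun n => ?_, Representation.character ((Units.coeHom _).comp
      ((MonoidHom.snd _ _).comp ((Tl ρ).subtype.comp (δ ^ Nat.card N).ker.subtype))), ⟨?_⟩, hθ,
    fun g => ?_, fun z hz => ?_, fun z hz => ?_, fun _ => rfl, isCharacter_character _, fun _ => rfl⟩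
  · change δ _ ^ _ = 1
    rw [← map_pow, ← map_pow, pow_card_eq_one', map_one, map_one]
  · rintro _ ⟨n, rfl⟩ x
    exact ⟨_, Subtype.ext (tl_conj_emb ρ x.1 n).symm⟩
  · obtain ⟨x, rfl⟩ := tlProj_surjective ρ h g
    obtain ⟨c, hc⟩ := IsAlgClosed.exists_pow_nat_eq ((δ x)⁻¹ : ℂˣ).1 hd0
    have hc0 : c ≠ 0 := fun e => (δ x)⁻¹.ne_zero (by rw [← hc, e, zero_pow hd0.ne'])
    refine ⟨⟨tlScal ρ (Units.mk0 c hc0) * x, ?_⟩, one_mul _⟩
    change δ _ ^ _ = 1
    rw [map_mul, d1, show Units.mk0 c hc0 ^ _ = (δ x)⁻¹ from Units.ext hc, inv_mul_cancel, one_pow]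
  · obtain ⟨c, -, h2⟩ := k z hz
    exact mem_center_iff.2 fun x => Subtype.ext (by
      simp only [Subgroup.coe_mul, ← h2, tlScal_comm])
  · obtain ⟨c, h1, h2⟩ := k z hz
    obtain ⟨e, he⟩ := hd
    refine Subtype.ext ?_
    rw [Subgroup.coe_pow, ← h2, ← map_pow]
    nth_rw 1 [he]
    rw [mul_right_comm, pow_mul, h1, one_pow, map_one]
    rfl

theorem le_map_pCore {p : ℕ} [Fact p.Prime] {H X : Type*} [Group H] [Finite H] [Group X] [Finite X]
    {σ : H →* X} (hs : Function.Surjective σ) (hc : σ.ker ≤ center H) (h0 : pPrimeCore p X = ⊥) :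
    pCore p X ≤ (pCore p H).map σ := by
  haveI := (H1.pCore_isPGroup p X).isNilpotent
  have := map_mono (f := σ) ((H1.le_fittingSubgroup inferInstance
    (Subgroup.isNilpotent_of_ker_le_center (σ.subgroupComap (pCore p X)) fun x hx =>
      mem_center_iff.2 fun y => Subtype.ext (mem_center_iff.1 (hc (congrArg Subtype.val hx)) y))).trans
        (H1.fittingSubgroup_le_pCore_sup_pPrimeCore p))
  rw [map_comap_eq_self_of_surjective hs, Subgroup.map_sup] at this
  exact this.trans (sup_le le_rfl ((H1.map_pPrimeCore_le hs).trans (h0.le.trans bot_le)))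

theorem index_cz_dvd {A H : Type*} [Group A] [Group H] {q : A →* H} (hq : Function.Surjective q)
    (x : A) : (cz (q x)).index ∣ (cz x).index := by
  rw [← index_comap_of_surjective _ hq]
  exact index_dvd_of_le fun y hy => mem_cz.2 (by rw [← map_mul, mem_cz.1 hy, map_mul])

theorem index_cz_eq {A H : Type*} [Group A] [Finite A] [Group H] {q : A →* H}
    (hq : Function.Surjective q) (hc : q.ker ≤ center A) (x : A) :
    ∃ t, t ∣ Nat.card q.ker ∧ (cz x).index = t * (cz (q x)).index := by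
  have k : ∀ y : (cz (q x)).comap q, ⁅(y : A), x⁆ ∈ q.ker := fun y => by
    rw [MonoidHom.mem_ker, map_commutatorElement, commutatorElement_eq_one_iff_mul_comm]
    exact mem_cz.1 y.2
  let φ : (cz (q x)).comap q →* q.ker := MonoidHom.mk' (fun y => ⟨_, k y⟩) fun y z => Subtype.ext (by
    change ⁅(y : A) * z, x⁆ = ⁅(y : A), x⁆ * ⁅(z : A), x⁆
    rw [mem_center_iff.1 (hc (k z)), show ⁅(y : A) * z, x⁆ = y * ⁅(z : A), x⁆ * ((y : A)⁻¹ * ⁅(y : A), x⁆) by
      simp only [commutatorElement_def]; group, mem_center_iff.1 (hc (k z))]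
    group)
  refine ⟨φ.ker.index, by rw [index_ker]; exact card_subgroup_dvd_card _, ?_⟩
  rw [← index_comap_of_surjective _ hq, ← relIndex_mul_index (H := cz x) (K := (cz (q x)).comap q)
    fun y hy => mem_cz.2 (by rw [← map_mul, mem_cz.1 hy, map_mul]), relIndex]
  congr 2
  ext y
  rw [mem_subgroupOf, mem_cz, ← commutatorElement_eq_one_iff_mul_comm, MonoidHom.mem_ker,
    Subtype.ext_iff]
  rfl

namespace Cov
variable {A : Type*} [Group A] [Finite A] {π : A →* G} {ι : N →* A} {η : A → ℂ} [ι.range.Normal]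
  (c : Cov θ π ι η) [Fintype N] {χ : G → ℂ}
include c

theorem one : η 1 = θ 1 := ι.map_one ▸ c.res 1

theorem gal (hχ : IsIrrCharacter G χ) (h : Over N χ θ) :
    ∃ β, IsIrrCharacter (A ⧸ ι.range) β ∧ ∀ x : A, χ (π x) = η x * β x := by
  haveI := Fintype.ofFinite ι.range
  let e := MonoidHom.ofInjective fun a b (h : ι a = ι b) => Subtype.ext (by rw [← c.pi, h, c.pi])
  have h1 : (fun n : ι.range => η n) = fun n => θ (e.symm n) := funext fun n =>
    (congrArg η (MonoidHom.apply_ofInjective_symm _ n).symm).trans (c.res _)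
  obtain ⟨β, h2, h3, h4⟩ := gallagher_surj ι.range c.ch (h1 ▸ c.irr.comp_mulEquiv e.symm)
    (hχ.comp_of_surjective π c.surj) (by
      rw [← classInner_comp_of_surjective e.toMonoidHom e.surjective]
      change classInner (fun n => χ (π (ι n))) (fun n => η (ι n)) ≠ 0
      simpa only [c.pi, c.res] using h)
  obtain ⟨β', h5, h6⟩ := h2.exists_quotient ι.range fun n hn => by simpa using h3 n hn 1
  exact ⟨β', h5, fun x => h6 x ▸ congrFun h4 x⟩

theorem dec {x : A} (hx : π x ∈ N) : ∃ z ∈ π.ker, (z : A ⧸ ι.range) = x :=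
  ⟨x * (ι ⟨_, hx⟩)⁻¹, by simp [c.pi], QuotientGroup.mk_mul_of_mem _ (inv_mem ⟨_, rfl⟩)⟩

theorem ncard_le {B : Set (IrrCharacter G)} (hB : ∀ χ ∈ B, Over N (χ : IrrCharacter G) θ) :
    B.ncard ≤ Nat.card (ConjClasses (G ⧸ N)) := by
  classical
  haveI := Fintype.ofFinite (ConjClasses (G ⧸ N))
  haveI := Fintype.ofFinite B
  choose β h1 h2 using fun χ : B => c.gal χ.1.2 (hB χ χ.2)
  choose r hr using fun C : ConjClasses (G ⧸ N) =>
    (QuotientGroup.mk_surjective.comp c.surj) C.out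
  have : LinearIndependent ℂ fun χ C => β χ (r C) := Fintype.linearIndependent_iff.2 fun a ha =>
    Fintype.linearIndependent_iff.1 ((linearIndependent_irr (G := G)).comp (Subtype.val : B → _)
      Subtype.val_injective) a (funext fun g => by
        obtain ⟨x, rfl⟩ := c.surj g
        obtain ⟨y, hy⟩ := isConj_iff.1 (ConjClasses.mk_eq_mk_iff_isConj.1
          (Quotient.out_eq (ConjClasses.mk (π x : G ⧸ N))))
        obtain ⟨y, rfl⟩ := (QuotientGroup.mk_surjective.comp c.surj) y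
        set C := ConjClasses.mk (π x : G ⧸ N)
        obtain ⟨z, hz, h3⟩ := c.dec (x := (y * r C * y⁻¹)⁻¹ * x) (by
          rw [map_mul, map_inv, ← QuotientGroup.eq, ← hy, ← hr]; simp)
        have h4 : ∀ χ : B, (χ.1 : G → ℂ) (π x) = η x * (η 1 / η z) * β χ (r C) := fun χ => by
          have h5 := (h1 χ).inflate ι.range
          obtain ⟨ω, -, h6⟩ := h5.isCharacter.apply_mul_of_norm_eq
            (h5.norm_eq_of_mem_center (c.cen hz))
          have h7 := (h2 χ z).symm.trans (congrArg _ hz)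
          have h8 := left_ne_zero_of_mul (h7 ▸ χ.1.2.apply_one_ne_zero :)
          rw [← π.map_one, h2, ← one_mul z, h6, one_mul, ← mul_assoc,
            mul_left_inj' h5.apply_one_ne_zero] at h7
          rw [h2, ← h7, mul_div_cancel_left₀ _ h8, mul_assoc, ← show β χ _ = β χ (r C) from
            h5.isClassFunction (r C) y, ← h6, QuotientGroup.mk_mul _ _ z, h3,
            ← QuotientGroup.mk_mul, mul_inv_cancel_left]
        have h6 := congrFun ha C
        simp only [Finset.sum_apply, Pi.smul_apply, smul_eq_mul, Pi.zero_apply, Function.comp,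
          h4] at h6 ⊢
        rw [← mul_zero (η x * (η 1 / η z)), ← h6, Finset.mul_sum]
        exact Finset.sum_congr rfl fun χ _ => mul_left_comm _ _ _)
  simpa [← Nat.card_eq_fintype_card] using this.fintype_card_le_finrank

variable {p : ℕ} [hp : Fact p.Prime] {M : Ideal AlgInt} [M.IsMaximal] [CharP (Res M) p]
  (hs : Group.IsSolvable G) (h0 : pPrimeCore p (G ⧸ N) = ⊥) (hN : ¬ p ∣ Nat.card N)
include hN

theorem deg : ¬ p ∣ charDegree θ := fun e => hN (e.trans c.irr.charDegree_dvd_card)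

include hs h0

theorem mem_pCore (hχ : IsIrrCharacter G χ) (h : Over N χ θ) {g : G}
    (h1 : red M (centralChar χ g) ≠ 0) : (g : G ⧸ N) ∈ pCore p (G ⧸ N) := by
  obtain ⟨x, rfl⟩ := c.surj g
  obtain ⟨β, h2, h3⟩ := c.gal hχ h
  let σ := QuotientGroup.map ι.range N π (by rintro _ ⟨n, rfl⟩; exact mem_comap.2 (c.pi n ▸ n.2))
  have h4 : (x : A ⧸ ι.range) ∈ centralizer (pCore p (A ⧸ ι.range) : Set (A ⧸ ι.range)) := by
    by_contra e
    have h4 : br (pCore p _) (classSum (Res M) (x : A ⧸ ι.range)) = 0 := by_contra fun e' => by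
      obtain ⟨_, h4, h5⟩ := exists_isConj_of_br_classSum e'
      obtain ⟨y, rfl⟩ := isConj_iff.1 h4
      exact e (by simpa [mul_assoc] using Normal.conj_mem inferInstance _ h5 y⁻¹)
    have h5 := lam_br_of_normal (M := M) (H1.pCore_isPGroup p _) h2 (classSum_mem_Zc (x : A ⧸ ι.range))
    rw [h4, map_zero, lam_classSum h2.isClassFunction] at h5
    obtain ⟨t, h6, h7⟩ := index_cz_eq c.surj c.cen x
    obtain ⟨m, h8⟩ := index_cz_dvd (QuotientGroup.mk'_surjective ι.range) x
    have h9 : centralChar χ (π x) * (t * charDegree θ : ℕ) =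
        m * η x * centralChar β (x : A ⧸ ι.range) := by
      have h9 : ((cz (x : A ⧸ ι.range)).index * m : ℂ) = t * (cz (π x)).index := by
        exact_mod_cast h8.symm.trans h7
      have := c.irr.apply_one_ne_zero
      have := h2.apply_one_ne_zero
      rw [centralChar, centralChar, ← π.map_one, h3, h3, c.one, Nat.cast_mul, c.irr.cast_charDegree,
        QuotientGroup.mk_one]
      field_simp
      linear_combination (-η x * β x) * h9
    have h10 := congrArg (red M) h9
    rw [red_mul (centralChar_mem hχ _) (natCast_mem _ _), red_mul (mul_mem (natCast_mem _ _)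
      (mem_locRing_of_isIntegral M (c.ch.isIntegral x))) (centralChar_mem h2 _), ← h5, mul_zero,
      red_natCast, mul_eq_zero, CharP.cast_eq_zero_iff _ p, hp.out.dvd_mul] at h10
    refine h10.elim h1 (·.elim (fun e => ?_) (c.deg hN))
    obtain ⟨z, hz⟩ := exists_prime_orderOf_dvd_card' p (e.trans h6)
    exact hN ((hp.out.dvd_mul.1 (hz ▸ orderOf_dvd_of_pow_eq_one
      (Subtype.ext (c.exp z z.2)))).elim id id)
  refine H1.centralizer_pCore_le_of_solvable inferInstance h0 fun u hu => ?_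
  obtain ⟨v, hv, rfl⟩ := le_map_pCore (σ := σ) (fun g => by
    obtain ⟨y, rfl⟩ := (QuotientGroup.mk_surjective.comp c.surj) g
    exact ⟨y, rfl⟩) (fun y hy => by
      obtain ⟨y, rfl⟩ := QuotientGroup.mk_surjective y
      obtain ⟨z, hz, e⟩ := c.dec ((QuotientGroup.eq_one_iff (π y)).1 hy)
      refine e ▸ mem_center_iff.2 fun w => ?_
      obtain ⟨w, rfl⟩ := QuotientGroup.mk_surjective w
      exact congrArg QuotientGroup.mk (mem_center_iff.1 (c.cen hz) w)) h0 hu
  exact (σ.map_mul v x).symm.trans ((congrArg σ (h4 v hv)).trans (σ.map_mul x v))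

theorem defect {B : Set (IrrCharacter G)} (hB : IsPBlock M B)
    (hB' : ∀ χ ∈ B, Over N (χ : IrrCharacter G) θ) :
    blockDefect p B = (Nat.card G).factorization p := by
  obtain ⟨g, hg⟩ := IsPBlock.exists_defectClass hB
  obtain ⟨χ, hχ, h1⟩ := exists_height_zero p (IsPBlock.nonempty hB)
  have h2 := (IsDefectClass.red_ne_zero_iff hB hg hχ).2 h1
  have h3 := (QuotientGroup.eq_one_iff g).1 (eq_one_of_pElt_of_pReg (isPElt_of_mem
    (H1.pCore_isPGroup p _) (c.mem_pCore hs h0 hN χ.2 (hB' χ hχ) (lam_classSum (M := M)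
      χ.2.isClassFunction g ▸ IsDefectClass.lam_ne_zero hg hχ))) fun e => IsDefectClass.pReg hB hg
        (e.trans (orderOf_map_dvd (QuotientGroup.mk' N) g)))
  obtain ⟨β, h4, h5⟩ := c.gal χ.2 (hB' χ hχ)
  rw [show g = π (ι ⟨g, h3⟩) from (c.pi ⟨g, h3⟩).symm, h5,
    (QuotientGroup.eq_one_iff (N := ι.range) _).2 ⟨_, rfl⟩, ← h4.cast_charDegree,
    red_mul (mem_locRing_of_isIntegral M (c.ch.isIntegral _)) (natCast_mem _ _), red_natCast] at h2
  have h6 : nu p (χ : G → ℂ) = 0 := Nat.factorization_eq_zero_of_not_dvd (by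
    rw [H3.charDegree_eq (n := charDegree θ * charDegree β) (by
      rw [← π.map_one, h5, c.one, Nat.cast_mul, c.irr.cast_charDegree, h4.cast_charDegree]; rfl),
      hp.out.dvd_mul]
    exact not_or.2 ⟨c.deg hN, fun e => right_ne_zero_of_mul h2 ((CharP.cast_eq_zero_iff _ p _).2 e)⟩)
  rw [blockDefect_eq, Nat.le_zero.1 ((minNu_le hχ).trans h6.le), Nat.sub_zero]

end Cov

variable {p : ℕ} [hp : Fact p.Prime] {M : Ideal AlgInt} [M.IsMaximal] [CharP (Res M) p]

theorem indFun_mem [Fintype G] (T : Subgroup G) {f : T → ℂ} (hf : IsClassFunction T f)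
    (h : ∀ x, f x ∈ locRing M) (g : G) : indFun T f g ∈ locRing M := by
  haveI := Fintype.ofFinite T
  haveI := Fintype.ofFinite (G ⧸ T)
  rw [indFun_apply, sum_eq_sum_cosets T, Finset.mul_sum]
  refine sum_mem fun q _ => ?_
  rw [Finset.sum_congr rfl fun a _ => show _ = extendByZero T f (q.out⁻¹ * g * q.out) by
    rw [← ebz_conj_mem T hf a.2]; congr 1; group, Finset.sum_const, Finset.card_univ,
    ← Nat.card_eq_fintype_card, nsmul_eq_mul, inv_mul_cancel_left₀ natCard_ne_zero]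
  by_cases e : q.out⁻¹ * g * q.out ∈ T
  · exact ebz_of_mem T f e ▸ h _
  · exact ebz_of_not_mem T f e ▸ zero_mem _

/-- The Fong–Reynolds theorem. -/
theorem reynolds [Fintype N] (hθ : IsIrrCharacter N θ) (hN : ¬ p ∣ Nat.card N)
    {B : Set (IrrCharacter G)} (hB : IsPBlock M B) {χ : IrrCharacter G} (hχ : χ ∈ B)
    (h : Over N χ θ) : ∃ b : Set (IrrCharacter (inertia N θ)), IsPBlock M b ∧
      blockDefect p b = blockDefect p B ∧ B.ncard ≤ b.ncard := by
  classical
  haveI := Fintype.ofFinite G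
  set T := inertia N θ with hT
  have hNT : N ≤ T := le_inertia N hθ.isClassFunction
  obtain ⟨ψ, h1, h2, h3⟩ := clifford_corr_exists N hθ T hT hNT χ.2 h
  haveI := Fintype.ofFinite (N.subgroupOf T)
  let e := subgroupOfEquivOfLe hNT
  have tr : ∀ ξ : T → ℂ, Over (N.subgroupOf T) ξ (fun n => θ (e n)) ↔
      classInner (fun n : N => ξ (inclusion hNT n)) θ ≠ 0 := fun ξ => by
    rw [← classInner_comp_of_surjective e.toMonoidHom e.surjective]
    rfl
  set b := blockOf M ψ
  have hb : IsPBlock M b := isPBlock_blockOf' h1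
  have ov : ∀ ξ ∈ b, classInner (fun n : N => (ξ : T → ℂ) (inclusion hNT n)) θ ≠ 0 := fun ξ hξ =>
    (tr _).1 (over_of_sameBlock_of_not_dvd (N.subgroupOf T) (Nat.card_congr e.toEquiv ▸ hN)
      (χ := ⟨ψ, h1⟩) hξ (θ := ⟨_, hθ.comp_mulEquiv e⟩) ((tr _).2 h2))
  let f : b → IrrCharacter G := fun ξ => ⟨_, (clifford_corr_irr N hθ T hT hNT ξ.1.2 (ov ξ ξ.2)).1⟩
  have hf : Function.Injective f := fun ξ ξ' e => Subtype.ext (Subtype.ext
    (clifford_corr_inj N hθ T hT hNT ξ.1.2 ξ'.1.2 (ov ξ ξ.2) (ov ξ' ξ'.2) (congrArg Subtype.val e)))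
  have h4 : χ = f ⟨⟨ψ, h1⟩, sameBlock_refl _⟩ := Subtype.ext h3
  have h5 : B = Set.range f := by
    refine subset_antisymm ((isUnion_of_fA_mem fun g => ?_).subset_of_mem hB hχ ⟨_, h4.symm⟩) ?_
    · convert indFun_mem T (f := blockCoeff b) (fun x y => blockCoeff_eq_of_isConj b
        (isConj_iff.2 ⟨y, rfl⟩).symm) (IsPBlock.fA_mem hb) g
      rw [coeff_fA, blockCoeff_eq, show blockCoeff b = (Nat.card T : ℂ)⁻¹ • ∑ ξ : b,
        (ξ.1 : T → ℂ) 1 • fun x => conj ((ξ.1 : T → ℂ) x) from funext fun x => by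
          rw [blockCoeff_eq, Finset.sum_subtype _ (p := (· ∈ b)) (F := inferInstance) (by simp)]
          simp,
        indFun_smul, indFun_sum, ← Finset.sum_bij (s := Finset.univ) (fun ξ _ => f ξ)
          (fun ξ _ => Finset.mem_filter.2 ⟨Finset.mem_univ _, ξ, rfl⟩)
          (fun _ _ _ _ e => hf e) (fun ξ hξ => by simpa using hξ) fun _ _ => rfl]
      simp only [indFun_smul, Pi.smul_apply, Finset.sum_apply, indFun_star, smul_eq_mul,
        Finset.mul_sum, f, indFun_one, ← T.index_mul_card, Nat.cast_mul]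
      refine Finset.sum_congr rfl fun ξ _ => ?_
      have : (T.index : ℂ) ≠ 0 := by exact_mod_cast T.index_ne_zero_of_finite
      field_simp
    · rintro _ ⟨ξ, rfl⟩
      have h5 := isInducedBlock_of_indFun (M := M) T ξ.1 (f ξ).2
      rw [← IsPBlock.eq_blockOf hb ξ.2] at h5
      rw [IsPBlock.eq_blockOf hB hχ, h4, H5.IsInducedBlock.unique
        (isInducedBlock_of_indFun (M := M) T ⟨ψ, h1⟩ (h3 ▸ χ.2)) h5]
      exact sameBlock_refl _
  have h6 : ∀ ξ, nu p (f ξ : G → ℂ) = T.index.factorization p + nu p (ξ.1 : T → ℂ) := fun ξ => by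
    rw [nu, H3.charDegree_eq (n := T.index * charDegree (ξ.1 : T → ℂ)) ((indFun_one _ _).trans
      (by rw [Nat.cast_mul, ξ.1.2.cast_charDegree])), Nat.factorization_mul
        T.index_ne_zero_of_finite (charDegree_ne_zero _)]
    rfl
  refine ⟨b, hb, ?_, by rw [h5, Set.ncard_range_of_injective hf]; rfl⟩
  obtain ⟨ξ, h7, h8⟩ := exists_nu_eq_minNu p (IsPBlock.nonempty hb)
  obtain ⟨_, h9, h10⟩ := exists_nu_eq_minNu p (IsPBlock.nonempty hB)
  obtain ⟨ξ', rfl⟩ := h5.le h9
  have := minNu_le (p := p) (h5.ge ⟨⟨ξ, h7⟩, rfl⟩)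
  have := minNu_le (p := p) ξ'.2
  rw [blockDefect_eq, blockDefect_eq, factorization_card_eq p T]
  simp only [h6] at *
  omega

end Cfsg.Agent.Kr.E

namespace Cfsg.Agent.Kr

open Cfsg Cfsg.Agent.H3 Cfsg.Agent.H4 Cfsg.Agent.H5 Subgroup

universe u

/-- Fong's reduction for blocks of solvable groups. -/
theorem fong_red {G : Type u} [Group G] [Finite G] [Group.IsSolvable G] (p : ℕ) [Fact p.Prime]
    {M : Ideal AlgInt} (hM : IsPModular p M) {B : Set (IrrCharacter G)} (hB : IsPBlock M B) :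
    ∃ (X : Type u) (_ : Group X) (_ : Finite X), Group.IsSolvable X ∧ pPrimeCore p X = ⊥ ∧
      (Nat.card X).factorization p = blockDefect p B ∧ B.ncard ≤ Nat.card (ConjClasses X) := by
  haveI := hM.2.1
  haveI := charP_res hM
  induction hn : Nat.card G using Nat.strong_induction_on generalizing G with | _ n ih => ?_
  haveI := Fintype.ofFinite (pPrimeCore p G)
  have hN := H1.not_dvd_card_pPrimeCore p G
  obtain ⟨χ, hχ⟩ := IsPBlock.nonempty hB
  obtain ⟨θ, h⟩ := exists_under (pPrimeCore p G) χ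
  by_cases hT : inertia _ θ.1 = ⊤
  · obtain ⟨A, _, _, π, ι, η, _, c⟩ := E.exists_cov θ.2 fun g => hT.ge (mem_top g)
    have h1 := fun ψ hψ => over_of_sameBlock_of_not_dvd _ hN (IsPBlock.sameBlock hB hχ (ψ := ψ) hψ) h
    have h0 := H1.pPrimeCore_quotient_pPrimeCore p G
    refine ⟨_, _, inferInstance, inferInstance, h0, ?_, c.ncard_le h1⟩
    rw [c.defect inferInstance h0 hN hB h1, factorization_card_eq p (pPrimeCore p G),
      Nat.factorization_eq_zero_of_not_dvd hN]
    rfl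
  · obtain ⟨b, h1, h2, h3⟩ := E.reynolds θ.2 hN hB hχ h
    obtain ⟨X, _, _, h4, h5, h6, h7⟩ := ih _ (hn ▸ H1.card_lt_of_ne_top hT) h1 rfl
    exact ⟨X, _, inferInstance, h4, h5, h6.trans h2, h3.trans h7⟩

end Cfsg.Agent.Kr
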