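import Cfsg.Agent.Kr.D

/-! The inductive claim for modules: the reducible step and the symplectic lemma. -/

set_option autoImplicit false
set_option linter.unusedSectionVars false

namespace Cfsg.Agent.Kr

open Subgroup Function

universe u

def OK (b : Prop) (p c : ℕ) : Prop := (b = False ∧ c = p) ∨ (b = True ∧ c = 1 ∧ p = 2)

abbrev Inv {G V : Type*} [Group G] [AddCommGroup V] (ρ : Representation ℤ G V) (U : Submodule ℤ V) : Prop :=
  ∀ g, U ≤ U.comap (ρ g)

/-- the main claim for modules of order less than `k` -/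
def MC (k : ℕ) : Prop := ∀ (V G : Type u) [AddCommGroup V] [Finite V] [Group G] [Finite G] [Group.IsSolvable G]
  (ρ : Representation ℤ G V) (p n c : ℕ) (b : Prop), p.Prime → Nat.card V < k → Nat.card V = p ^ n → Injective ρ →
    pCore p G = ⊥ → OK b p c → ∀ (m : ℕ) (U : ℕ → Submodule ℤ V), (∀ i, Inv ρ (U i)) → (∀ i < m, U i < U (i + 1)) →
      T ρ b * 3 ^ m ≤ (3 * c) ^ n * Nat.card G

variable {V G : Type u} [AddCommGroup V] [Finite V] [Group G] [Finite G] [Group.IsSolvable G]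
  {ρ : Representation ℤ G V} {p n c k : ℕ} {b : Prop}

theorem MC.one (h : MC.{u} k) [Nontrivial V] (hp : p.Prime) (hk : Nat.card V < k) (hV : Nat.card V = p ^ n)
    (hf : Injective ρ) (hc : pCore p G = ⊥) (ok : OK b p c) : T ρ b * 3 ≤ (3 * c) ^ n * Nat.card G := by
  simpa using h V G ρ p n c b hp hk hV hf hc ok 1 (fun i => if i = 0 then ⊥ else ⊤)
    (fun i g => by split_ifs <;> simp) fun i hi => by simp_all

/-- the faithful representation of the image -/
abbrev bar (ρ : Representation ℤ G V) : Representation ℤ (G ⧸ ρ.ker) V := QuotientGroup.lift _ ρ le_rfl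

theorem bar_inj : Injective (bar ρ) := (injective_iff_map_eq_one _).2 fun g hg => by
  induction g using QuotientGroup.induction_on with | _ g => exact (QuotientGroup.eq_one_iff _).2 hg

theorem pCore_normal (h : pCore p G = ⊥) (N : Subgroup G) [N.Normal] : pCore p N = ⊥ :=
  (map_eq_bot_iff_of_injective _ N.subtype_injective).1 (eq_bot_iff.2 (h ▸ H1.map_subtype_pCore_le N))

theorem pCore_irr (h : H4.IrrZ ρ) (hp : p.Prime) (hV : Nat.card V = p ^ n) (hf : Injective ρ) : pCore p G = ⊥ :=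
  haveI := Fact.mk hp
  eq_bot_iff.2 fun g hg => hf ((h.eq_one_of_pow hV (pCore p G) (fun m hm => by
    obtain ⟨j, e⟩ := H1.pCore_isPGroup p G ⟨m, hm⟩
    exact ⟨j, by rw [show m ^ p ^ j = 1 from congrArg Subtype.val e, map_one]⟩) g hg).trans (map_one ρ).symm)

theorem exists_max {U : Submodule ℤ V} (h : Inv ρ U) (h1 : U ≠ ⊤) : ∃ (W : Submodule ℤ V) (hW : Inv ρ W), U ≤ W ∧
    Nontrivial (V ⧸ W) ∧ H4.IrrZ (bar (ρ.quotient W hW)) := by
  obtain ⟨W, a, ⟨hW, h2⟩, hm⟩ := Finite.exists_le_maximal (p := fun W => Inv ρ W ∧ W ≠ ⊤) ⟨h, h1⟩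
  refine ⟨W, hW, a, Submodule.Quotient.nontrivial_iff.2 h2, fun X hX => or_iff_not_imp_right.2 fun e => ?_⟩
  have := hm (y := X.comap W.mkQ) ⟨fun g v hv => hX (g : G ⧸ _) hv, fun e' => e (by
    rw [← Submodule.map_comap_eq_of_surjective W.mkQ_surjective X, e', Submodule.map_top, Submodule.range_mkQ])⟩
    (fun v hv => by simp [(Submodule.Quotient.mk_eq_zero W).2 hv])
  exact eq_bot_iff.2 fun x hx => by
    obtain ⟨v, rfl⟩ := W.mkQ_surjective x
    exact (Submodule.Quotient.mk_eq_zero W).2 (this hx)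

instance finite_quot (W : Submodule ℤ V) : Finite (V ⧸ W) := .of_surjective _ W.mkQ_surjective

theorem card_quot (W : Submodule ℤ V) : Nat.card V = Nat.card (V ⧸ W) * Nat.card W :=
  W.toAddSubgroup.card_eq_card_quotient_mul_card_addSubgroup

theorem MC.split (h : MC.{u} k) (hp : p.Prime) (hk : Nat.card V ≤ k) (hV : Nat.card V = p ^ n) (hf : Injective ρ)
    (hc : pCore p G = ⊥) (ok : OK b p c) {m : ℕ} {U : ℕ → Submodule ℤ V} (h1 : ∀ i, Inv ρ (U i))
    (h2 : ∀ i < m, U i < U (i + 1)) {W : Submodule ℤ V} (hW : Inv ρ W) (h3 : U m ≤ W) [Nontrivial W]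
    [Nontrivial (V ⧸ W)] (h4 : H4.IrrZ (bar (ρ.quotient W hW))) : T ρ b * 3 ^ (m + 1) ≤ (3 * c) ^ n * Nat.card G := by
  have e := card_quot W
  obtain ⟨n1, -, e1⟩ := (Nat.dvd_prime_pow hp).1 (hV ▸ Dvd.intro _ e.symm)
  obtain ⟨n2, -, e2⟩ := (Nat.dvd_prime_pow hp).1 (hV ▸ Dvd.intro_left _ e.symm)
  obtain rfl : n = n1 + n2 := Nat.pow_right_injective hp.two_le (by simp only [pow_add, ← hV, e, e1, e2])
  have p1 := Finite.one_lt_card (α := W)
  have p2 := Finite.one_lt_card (α := V ⧸ W)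
  let N := (ρ.quotient W hW).ker
  have a1 := h.one hp (by nlinarith) e1 bar_inj (pCore_irr h4 hp e1 bar_inj) ok
  have a2 := h W N (res (ρ.subrepresentation W hW) N.subtype) p n2 c b hp (by nlinarith) e2
    ((injective_iff_map_eq_one _).2 fun g hg => Subtype.ext (mem_bot.1 (hc ▸ H1.le_pCore
      (N := N ⊓ (ρ.subrepresentation W hW).ker) inferInstance (fun x => ⟨n1 + n2, Subtype.ext (hf ?_)⟩) ⟨g.2, hg⟩)))
    (pCore_normal hc N) ok m (fun i => (U i).comap W.subtype) (fun i g v hv => h1 i g hv) fun i hi => by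
      obtain ⟨y, y1, y2⟩ := SetLike.exists_of_lt (h2 i hi)
      exact ⟨fun _ h => (h2 i hi).le h, fun h => y2 (h (show (⟨y, h3 (chain_mono h2 hi le_rfl y1)⟩ : W) ∈ _ from y1))⟩
  · have a3 : T ρ b ≤ T (bar (ρ.quotient W hW)) b * T (res (ρ.subrepresentation W hW) N.subtype) b :=
      T_le_mul (QuotientGroup.mk' N) W.mkQ N.subtype W.subtype N.subtype_injective W.subtype_injective (fun _ _ => rfl)
        (fun _ _ => rfl) (fun g hg => ⟨⟨g, (QuotientGroup.eq_one_iff _).1 hg⟩, rfl⟩)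
        fun v hv => ⟨⟨v, (Submodule.Quotient.mk_eq_zero W).1 hv⟩, rfl⟩
    rw [card_eq_card_quotient_mul_card_subgroup N, pow_add (3 * c), pow_succ]
    nlinarith [Nat.mul_le_mul a1 a2, Nat.mul_le_mul_right (3 ^ m * 3) a3]
  · ext v
    have b1 : ρ x (ρ x v - v) = ρ x v - v := congrArg Subtype.val (LinearMap.congr_fun x.2.2
      ⟨_, (Submodule.Quotient.eq W).1 (LinearMap.congr_fun x.2.1 (W.mkQ v))⟩)
    have b2 : ∀ j : ℕ, ρ (x ^ j) v = v + j • (ρ x v - v) := fun j => by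
      induction j with
      | zero => simp
      | succ j ih => rw [pow_succ', map_mul, Module.End.mul_apply, ih, map_add, map_nsmul, b1, succ_nsmul]; abel
    simpa [← hV] using b2 (p ^ (n1 + n2))

theorem card_irr [Nontrivial V] (h : H4.IrrZ ρ) : ∃ r j : ℕ, r.Prime ∧ Nat.card V = r ^ j ∧ ∀ v : V, r • v = 0 := by
  obtain ⟨r, hr, hd⟩ := Nat.exists_prime_and_dvd (Finite.one_lt_card (α := V)).ne'
  haveI := Fact.mk hr
  obtain ⟨v, hv⟩ := exists_prime_addOrderOf_dvd_card' r hd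
  have h1 : ∀ v : V, r • v = 0 := fun w => ((h (LinearMap.ker (r • LinearMap.id)) fun g x hx => by
    simp_all [← map_nsmul]).resolve_left fun e => hr.ne_one (hv.symm.trans (AddMonoid.addOrderOf_eq_one_iff.2
      (e.le (show r • v = 0 from hv ▸ addOrderOf_nsmul_eq_zero v))))).ge Submodule.mem_top
  obtain ⟨j, e⟩ := IsPGroup.iff_card.1 (fun v => ⟨1, (pow_one r).symm ▸ h1 v.toAdd⟩ : IsPGroup r (Multiplicative V))
  exact ⟨r, j, hr, e, h1⟩

theorem MC.sq (h : MC.{u} k) [Nontrivial V] (hi : H4.IrrZ ρ) (hf : Injective ρ) {s : ℕ} (hk : Nat.card V < k)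
    (hs : Nat.card V = s * s) (N : Subgroup G) [N.Normal] : 3 * cp N ≤ 3 ^ s * Nat.card N := by
  obtain ⟨r, j, hr, e, -⟩ := card_irr hi
  obtain ⟨m, -, rfl⟩ := (Nat.dvd_prime_pow hr).1 (e ▸ Dvd.intro _ hs.symm)
  have e' : Nat.card V = r ^ (2 * m) := by rw [hs, two_mul, pow_add]
  have h0 : 1 ≤ m := Nat.pos_of_ne_zero (by rintro rfl; exact (Finite.one_lt_card (α := V)).ne' hs)
  have h1 : Injective (res ρ N.subtype) := hf.comp N.subtype_injective
  have h2 := pCore_normal (pCore_irr hi hr e hf) N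
  by_cases h3 : r = 2
  · have := h.one hr hk e' h1 h2 (.inr ⟨rfl, rfl, h3⟩)
    rw [T_eq (.inl trivial), mul_one, mul_comm] at this
    exact this.trans (Nat.mul_le_mul_right _ (Nat.pow_le_pow_right (by norm_num) (h3 ▸ num5 m)))
  by_cases h4 : r = 3 ∧ m = 1
  · obtain ⟨rfl, rfl⟩ := h4
    have := cp_nine h1 hs
    omega
  refine (mul_comm _ _).trans_le ((Nat.mul_le_mul_right _ cp_le_T).trans ((h.one hr hk e' h1 h2
    (.inl ⟨rfl, rfl⟩)).trans (Nat.mul_le_mul_right _ (num4 ?_))))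
  have := hr.two_le
  have : r ≠ 4 := by rintro rfl; norm_num at hr
  omega

theorem MC.sl (h : MC.{u} k) (j : ℕ) : ∀ (W : Type u) [AddCommGroup W] [Finite W] (τ : Representation ℤ G W)
    (N : Subgroup G) [N.Normal] (s : ℕ), Nat.card W = j → Nat.card W < k → Nat.card W = s * s →
    (∀ g ∈ N, τ g = 1 → g = 1) → (∀ U, Inv τ U → IsSquare (Nat.card U)) →
    (∀ U, Inv τ U → ∀ g ∈ N, (∀ u ∈ U, τ g u = u) → ∀ w, τ g w - w ∈ U → τ g w = w) →
    3 * cp N ≤ 3 ^ s * Nat.card N := by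
  induction j using Nat.strong_induction_on with | _ j ih => ?_
  intro W _ _ τ N _ s hj hk hs h1 h2 h3
  rcases subsingleton_or_nontrivial W with _ | _
  · obtain rfl : N = ⊥ := eq_bot_iff.2 fun g hg => h1 g hg (Subsingleton.elim _ _)
    obtain rfl : s = 1 := Nat.eq_one_of_mul_eq_one_left (hs.symm.trans Nat.card_unique)
    simpa using cp_le_sq (G := (⊥ : Subgroup G))
  obtain ⟨U, hU, -, _, hi⟩ := exists_max (ρ := τ) (U := ⊥) (fun _ => bot_le) bot_ne_top
  obtain ⟨t, ht⟩ := h2 U hU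
  have e := card_quot U
  have p1 : 0 < Nat.card U := Nat.card_pos
  have p2 := Finite.one_lt_card (α := W ⧸ U)
  obtain ⟨r, rfl⟩ : t ∣ s := (Nat.pow_dvd_pow_iff two_ne_zero).1 (by rw [pow_two, pow_two, ← hs, ← ht, e]; simp)
  have e1 : Nat.card (W ⧸ U) = r * r := Nat.eq_of_mul_eq_mul_right p1 (by rw [← e, hs, ht]; ring)
  let f := QuotientGroup.mk' (τ.quotient U hU).ker
  haveI : (N.map f).Normal := Normal.map ‹_› _ (QuotientGroup.mk'_surjective _)
  have a1 := h.sq hi bar_inj (by nlinarith) e1 (N.map f)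
  have a2 := ih _ (by nlinarith) U (τ.subrepresentation U hU) (N ⊓ (τ.quotient U hU).ker) t rfl (by nlinarith) ht
    (fun g hg e => h1 g hg.1 (LinearMap.ext fun w => h3 U hU g hg.1
      (fun u hu => congrArg Subtype.val (LinearMap.congr_fun e ⟨u, hu⟩)) w
      ((Submodule.Quotient.eq U).1 (LinearMap.congr_fun hg.2 (U.mkQ w)))))
    (fun X hX => Nat.card_congr (Submodule.equivMapOfInjective _ U.subtype_injective X).toEquiv ▸ h2 _ fun g => by
      rintro _ ⟨x, hx, rfl⟩; exact ⟨_, hX g hx, rfl⟩)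
    fun X hX g hg e w hw => Subtype.ext (h3 (X.map U.subtype) (fun g => by
      rintro _ ⟨x, hx, rfl⟩; exact ⟨_, hX g hx, rfl⟩) g hg.1 (by
      rintro _ ⟨x, hx, rfl⟩; exact congrArg Subtype.val (e x hx)) w ⟨_, hw, rfl⟩)
  have hk : ∀ g : N, f.subgroupMap N g = 1 ↔ ∃ n, inclusion (inf_le_left (b := (τ.quotient U hU).ker)) n = g :=
    fun g => ⟨fun e => ⟨⟨g, g.2, (QuotientGroup.eq_one_iff _).1 (congrArg Subtype.val e)⟩, rfl⟩,
      by rintro ⟨n, rfl⟩; exact Subtype.ext ((QuotientGroup.eq_one_iff _).2 n.2.2)⟩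
  obtain ⟨t, rfl⟩ : ∃ x, t = x + 1 := Nat.exists_eq_succ_of_ne_zero (by rintro rfl; omega)
  obtain ⟨r, rfl⟩ : ∃ x, r = x + 1 := Nat.exists_eq_succ_of_ne_zero (by rintro rfl; omega)
  rw [card_eq_mul _ _ (f.subgroupMap_surjective N) (inclusion_injective _) hk, mul_comm (t + 1)]
  exact (Nat.mul_le_mul_left _ (cp_le_mul _ _ (inclusion_injective _) fun g => (hk g).1)).trans (num6 a1 a2)

end Cfsg.Agent.Kr
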