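import Cfsg.Agent.Kr.M

/-! The primitive case. -/

set_option autoImplicit false
set_option linter.unusedSectionVars false

namespace Cfsg.Agent.Kr

open Subgroup Function Module
open scoped commutatorElement IsMulCommutative

universe u

variable {V G K : Type u} [AddCommGroup V] [Finite V] [Group G] [Finite G] [Group.IsSolvable G] [Field K]
  {ρ : Representation ℤ G V} {p n c k : ℕ} {b : Prop} {A F : Subgroup G} (α : A →* K)

theorem comm_aux {d x u : G} (h1 : ⁅d, u⁆ * x = x * ⁅d, u⁆) (h2 : ⁅d, u⁆ * ⁅x, u⁆ = ⁅x, u⁆ * ⁅d, u⁆)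
    (h3 : ⁅x, u⁆ * d = d * ⁅x, u⁆) : d * u * d⁻¹ * (x⁻¹ * (d * x * d⁻¹)) = x⁻¹ * (d * x * d⁻¹) * (d * u * d⁻¹) :=
  calc _ = x⁻¹ * (x * ⁅d, u⁆) * (u * x⁻¹ * (d * x * d⁻¹)) := by simp [commutatorElement_def, mul_assoc]
    _ = x⁻¹ * (⁅d, u⁆ * ⁅x, u⁆) * (u * (d * x * d⁻¹)) := by rw [← h1]; simp [commutatorElement_def, mul_assoc]
    _ = x⁻¹ * (⁅x, u⁆ * d) * (u * x * d⁻¹) := by rw [h2]; simp [commutatorElement_def, mul_assoc]
    _ = _ := by rw [h3]; simp [commutatorElement_def, mul_assoc]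

theorem MC.sympl (h : MC.{u} k) (hα : Injective α) [A.Normal] [F.Normal]
    (hm : ∀ B : Subgroup G, B.Normal → B ≤ centralizer B → A ≤ B → B ≤ A) (h1 : A ≤ F) (h2 : F ≤ centralizer A)
    (h3 : ⁅F, F⁆ ≤ A) (h4 : ∀ D : Subgroup G, D.Normal → D ≤ centralizer A → ⁅D, F⁆ ≤ A → D ≤ F) {s : ℕ}
    (hs : A.relIndex F = s * s) (hk : s * s < k) : ∃ (Q : Type u) (_ : Group Q) (_ : Finite Q)
      (f : centralizer (A : Set G) →* Q), Surjective f ∧ (∀ g, f g = 1 ↔ ∃ x, inclusion h2 x = g) ∧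
        3 * cp Q ≤ 3 ^ s * Nat.card Q := by
  let π := QuotientGroup.mk' A
  have hπ : ∀ x y : G, π x * π y * (π x)⁻¹ = π y ↔ ⁅x, y⁆ ∈ A := fun x y => by
    rw [← mul_inv_eq_one, ← QuotientGroup.eq_one_iff]; rfl
  haveI : (F.map π).Normal := Normal.map ‹_› _ (QuotientGroup.mk'_surjective _)
  haveI : IsMulCommutative (F.map π) := ⟨⟨by
    rintro ⟨_, x, hx, rfl⟩ ⟨_, y, hy, rfl⟩
    exact Subtype.ext (mul_inv_eq_iff_eq_mul.1 ((hπ x y).2 (h3 (commutator_mem_commutator hx hy))))⟩⟩
  let τ := res (H4.conjRep (F.map π)) π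
  let w : ∀ x ∈ F, Additive (F.map π) := fun x hx => .ofMul ⟨π x, x, hx, rfl⟩
  have hw : ∀ y, ∃ x hx, w x hx = y := by rintro ⟨_, x, hx, rfl⟩; exact ⟨x, hx, rfl⟩
  have hτ : ∀ g x hx, τ g (w x hx) = w x hx ↔ ⁅g, x⁆ ∈ A := fun g x hx => by
    rw [← hπ, ← Additive.toMul.apply_eq_iff_eq, Subtype.ext_iff]; rfl
  have hE : ∀ U, Inv (bar τ) U → ∃ E : Subgroup G, E.Normal ∧ A ≤ E ∧ E ≤ F ∧ Nat.card U = A.relIndex E ∧
      ∀ x hx, w x hx ∈ U ↔ x ∈ E := fun U hU => by
    let E := ((AddSubgroup.toSubgroup' U.toAddSubgroup).map (F.map π).subtype).comap π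
    have e1 : ∀ x hx, w x hx ∈ U ↔ x ∈ E := fun x hx =>
      ⟨fun h => ⟨_, h, rfl⟩, fun ⟨y, h, e⟩ => (show Additive.ofMul y = w x hx from Subtype.ext e) ▸ h⟩
    have e2 : E ≤ F := (comap_mono (map_subtype_le _)).trans (by
      rw [comap_map_eq, QuotientGroup.ker_mk']; exact sup_le le_rfl h1)
    have e3 : A ≤ E := (QuotientGroup.ker_mk' A).ge.trans (ker_le_comap _ _)
    refine ⟨E, ⟨fun x hx g => (e1 _ (Normal.conj_mem ‹_› x (e2 hx) g)).1 (hU (g : G ⧸ τ.ker) ((e1 x (e2 hx)).2 hx))⟩,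
      e3, e2, Nat.eq_of_mul_eq_mul_left (Nat.card_pos (α := A)) ?_, e1⟩
    rw [H1.card_mul_relIndex_of_le e3, H1.card_comap_mk', card_map_of_injective (subtype_injective _), mul_comm]
    rfl
  let f := QuotientGroup.mk' τ.ker
  haveI : ((centralizer (A : Set G)).map f).Normal := Normal.map inferInstance _ (QuotientGroup.mk'_surjective _)
  have e0 : Nat.card (Additive (F.map π)) = s * s := Nat.eq_of_mul_eq_mul_right (Nat.card_pos (α := A)) (by
    rw [← hs, mul_comm (A.relIndex F), H1.card_mul_relIndex_of_le h1, ← H1.card_map_mk'_mul A F, inf_eq_left.2 h1]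
    rfl)
  refine ⟨_, inferInstance, inferInstance, f.subgroupMap _, f.subgroupMap_surjective _, fun g => ⟨fun e =>
    ⟨⟨g, h4 (centralizer A ⊓ τ.ker) inferInstance inf_le_left (commutator_le.2 fun d hd x hx =>
      (hτ d x hx).1 (LinearMap.congr_fun hd.2 _)) ⟨g.2, (QuotientGroup.eq_one_iff _).1 (congrArg Subtype.val e)⟩⟩, rfl⟩,
    ?_⟩, h.sl _ _ (bar τ) _ s rfl (e0 ▸ hk) e0 (fun g _ => (injective_iff_map_eq_one _).1 bar_inj g) (fun U hU => ?_) ?_⟩
  · rintro ⟨x, rfl⟩
    exact Subtype.ext ((QuotientGroup.eq_one_iff _).2 (LinearMap.ext fun y => by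
      obtain ⟨y, hy, rfl⟩ := hw y
      exact (hτ _ y hy).2 (h3 (commutator_mem_commutator x.2 hy))))
  · obtain ⟨E, _, e1, e2, e3, -⟩ := hE U hU
    exact e3 ▸ isSquare_relIndex α hα e1 (e2.trans h2) ((commutator_mono e2 e2).trans h3)
      (center_le hm e1 (e2.trans h2))
  · rintro U hU _ ⟨d, hd, rfl⟩ a1 y a2
    obtain ⟨E, hn, e1, e2, -, e4⟩ := hE U hU
    obtain ⟨x, hx, rfl⟩ := hw y
    have a3 : ⁅d, x⁆ ∈ E := (e4 _ (commutator_le_right ⊤ F (commutator_mem_commutator trivial hx))).1 (by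
      rw [sub_eq_add_neg] at a2
      exact a2)
    have a4 : x⁻¹ * (d * x * d⁻¹) ∈ A := center_le hm e1 (e2.trans h2) ⟨by
      simpa [commutatorElement_def, mul_assoc] using hn.conj_mem' _ a3 x, fun v hv => by
        have hu := hn.conj_mem' v hv d
        obtain ⟨u, rfl⟩ : ∃ u, v = d * u * d⁻¹ := ⟨d⁻¹ * v * d, by group⟩
        rw [show d⁻¹ * (d * u * d⁻¹) * d = u by group] at hu
        have b1 := (hτ d u (e2 hu)).1 (a1 _ ((e4 u (e2 hu)).2 hu))
        have b2 := h3 (commutator_mem_commutator hx (e2 hu))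
        exact comm_aux (h2 hx _ b1) (h2 (h1 b2) _ b1) (hd _ b2)⟩
    exact (hτ d x hx).2 (by simpa [commutatorElement_def, mul_assoc] using Normal.conj_mem ‹_› _ a4 x)

variable [Finite K]

theorem eq_one_of_pow_eq {f : ℕ} (hK : Nat.card K = p ^ f) {y : K} (h : y ^ p = 1) : y = 1 := by
  have := Fintype.ofFinite K
  obtain ⟨f, rfl⟩ : ∃ g, f = g + 1 := Nat.exists_eq_succ_of_ne_zero (by
    rintro rfl; exact (Finite.one_lt_card (α := K)).ne' hK)
  rw [← FiniteField.pow_card y, ← Nat.card_eq_fintype_card, hK, pow_succ', pow_mul, h, one_pow]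

theorem not_dvd_card_F (hp : p.Prime) {f : ℕ} (hK : Nat.card K = p ^ f) (hα : Injective α) (h2 : F ≤ centralizer A)
    (h3 : ⁅F, F⁆ ≤ A) (h5 : F ⊓ centralizer F ≤ A) : ¬ p ∣ Nat.card F := fun h => by
  haveI := Fact.mk hp
  obtain ⟨x, hx⟩ := exists_prime_orderOf_dvd_card' p h
  have e : x ^ p = 1 := hx ▸ pow_orderOf_eq_one x
  have h6 : (x : G) ∈ A := h5 ⟨x.2, fun d hd => commutatorElement_eq_one_iff_mul_comm.1 (congrArg Subtype.val
    (hα ((eq_one_of_pow_eq hK (y := chi α h2 d (fun y hy => h3 (commutator_mem_commutator hd hy)) x)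
      (by rw [← map_pow, e, map_one])).trans α.map_one.symm)))⟩
  have h7 := hα ((eq_one_of_pow_eq hK (y := α ⟨x, h6⟩) (by
    rw [← map_pow, ← α.map_one]; exact congrArg α (Subtype.ext (congrArg Subtype.val e :)))).trans α.map_one.symm)
  exact hp.ne_one (hx.symm.trans (orderOf_eq_one_iff.2 (Subtype.ext (congrArg Subtype.val h7 :))))

theorem card_range_le (hp : p.Prime) {f : ℕ} (hK : Nat.card K = p ^ f) (H : Subgroup (RingAut K)) : Nat.card H ≤ f := by
  have : Finite (RingAut K) := .of_injective _ DFunLike.coe_injective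
  have := Fintype.ofFinite H
  have e := Module.natCard_eq_pow_finrank (K := FixedPoints.subfield H K) (V := K)
  rw [FixedPoints.finrank_eq_card, ← Nat.card_eq_fintype_card, hK] at e
  obtain ⟨j, -, e'⟩ := (Nat.dvd_prime_pow hp).1 (e ▸ dvd_pow_self (Nat.card (FixedPoints.subfield H K))
    (Nat.card_pos (α := H)).ne')
  rw [e', ← pow_mul] at e
  rw [Nat.pow_right_injective hp.two_le e]
  exact Nat.le_mul_of_pos_left _ (Nat.pos_of_ne_zero (by
    rintro rfl; exact (Finite.one_lt_card (α := FixedPoints.subfield H K)).ne' e'))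

variable [Module K V]

theorem relIndex_le_sq [Nontrivial V] (hα : Injective α) (h0 : ∀ (a : A) v, ρ a v = α a • v)
    (h1 : ∀ g ∈ F, ∀ (y : K) v, ρ g (y • v) = y • ρ g v) (h2 : F ≤ centralizer A) (h3 : ⁅F, F⁆ ≤ A)
    (h5 : F ⊓ centralizer F ≤ A) : A.relIndex F ≤ finrank K V * finrank K V := by
  have := Fintype.ofFinite (F ⧸ A.subgroupOf F)
  let L : F → V →ₗ[K] V := fun g => ⟨⟨ρ g, map_add _⟩, h1 g g.2⟩
  let χ : F → F →* K := fun d => chi α h2 d fun x hx => h3 (commutator_mem_commutator d.2 hx)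
  have a1 := Fintype.linearIndependent_iff.1 ((linearIndependent_monoidHom F K).comp
    (fun i : F ⧸ A.subgroupOf F => χ i.out) fun i j e => by
      rw [← i.out_eq, ← j.out_eq]; exact QuotientGroup.eq.2 (h5 ⟨(i.out⁻¹ * j.out).2, chi_inj α hα h2 e⟩))
  have a2 : LinearIndependent K fun i : F ⧸ A.subgroupOf F => L i.out := Fintype.linearIndependent_iff.2 fun a ha i => by
    obtain ⟨v, hv⟩ := exists_ne (0 : V)
    have hv' : L i.out v ≠ 0 := fun e => hv (by rw [← ρ.inv_self_apply i.out v]; exact (congrArg _ e).trans (map_zero _))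
    refine (smul_eq_zero.1 ((forall_dual_apply_eq_zero_iff K _).1 fun l => ?_)).resolve_right hv'
    rw [map_smul]
    refine a1 (fun i => a i • l (L i.out v)) (funext fun x => ?_) i
    have b1 : ∀ g : F, L x⁻¹ (L g (L x v)) = χ g x • L g v := fun g => by
      have m := h3 (commutator_mem_commutator g.2 x.2)
      have e : (x : G)⁻¹ * (g * x) = ⁅(g : G), (x : G)⁆ * g := by
        rw [inv_mul_eq_iff_eq_mul, ← mul_assoc, ← h2 x.2 _ m]; simp [commutatorElement_def]
      have := congrArg (fun y => ρ y v) e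
      simp only [map_mul, Module.End.mul_apply] at this
      exact this.trans (h0 ⟨_, m⟩ (ρ g v))
    have b2 := congrArg (fun φ : V →ₗ[K] V => l (L x⁻¹ (φ (L x v)))) ha
    simpa [b1, mul_comm, mul_assoc, mul_left_comm] using b2
  simpa [relIndex, index, Module.finrank_linearMap] using a2.fintype_card_le_finrank

theorem MC.prim (h : MC.{u} k) [Nontrivial V] (hp : p.Prime) (hk : Nat.card V ≤ k) (hV : Nat.card V = p ^ n)
    (hf : Injective ρ) (ok : OK b p c) [MulSemiringAction G K] [A.Normal] (hA : A ≤ centralizer A)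
    (hm : ∀ B : Subgroup G, B.Normal → B ≤ centralizer B → A ≤ B → B ≤ A) (h0 : ∀ (a : A) v, ρ a v = α a • v)
    (h1 : ∀ g (y : K) v, ρ g (y • v) = (g • y) • ρ g v) (hC : ∀ g ∈ centralizer (A : Set G), ∀ y : K, g • y = y) :
    T ρ b * 3 ≤ (3 * c) ^ n * Nat.card G := by
  haveI := Fact.mk hp
  have hα : Injective α := fun a b e => Subtype.ext (hf (LinearMap.ext fun v => by rw [h0, h0, e]))
  have : Finite (RingAut K) := .of_injective _ DFunLike.coe_injective
  let σ := (MulSemiringAction.toRingAut G K).rangeRestrict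
  have hσ : ∀ g, σ g = 1 ↔ ∃ x, (centralizer (A : Set G)).subtype x = g := fun g => ⟨fun e => ⟨⟨g, fun a ha =>
    hf (LinearMap.ext fun v => by
      have : g • α ⟨a, ha⟩ = α ⟨a, ha⟩ := DFunLike.congr_fun (congrArg Subtype.val e) _
      rw [map_mul, map_mul, End.mul_apply, End.mul_apply, h0 ⟨a, ha⟩, h0 ⟨a, ha⟩, h1, this])⟩, rfl⟩,
    by rintro ⟨x, rfl⟩; exact Subtype.ext (RingEquiv.ext (hC x x.2))⟩
  have hs := Module.natCard_eq_pow_finrank (K := K) (V := V)
  have he : 1 ≤ finrank K V := finrank_pos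
  obtain ⟨f, -, hK⟩ := (Nat.dvd_prime_pow hp).1 (hV ▸ hs ▸ dvd_pow_self (Nat.card K) (by omega))
  obtain rfl : n = f * finrank K V := Nat.pow_right_injective hp.two_le (by simp only [pow_mul, ← hK, ← hs, hV])
  have ht := card_range_le hp hK (MulSemiringAction.toRingAut G K).range
  have ht' : 0 < Nat.card (MulSemiringAction.toRingAut G K).range := Nat.card_pos
  obtain ⟨F, _, f1, f2, f3, f4⟩ := exists_F α hα hA hm
  have f5 := center_le hm f1 f2
  obtain ⟨s, f6⟩ := isSquare_relIndex α hα f1 f2 f3 f5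
  have f7 : s ≤ finrank K V := Nat.mul_self_le_mul_self_iff.1 (f6 ▸ relIndex_le_sq α hα h0
    (fun g hg y v => by rw [h1, hC g (f2 hg)]) f2 f3 f5)
  have f8 := not_dvd_card_F α hp hK hα f2 f3 f5
  have f9 := f6 ▸ H1.card_mul_relIndex_of_le f1
  have a0 : 0 < Nat.card A := Nat.card_pos
  have a1 : Nat.card A + 1 ≤ Nat.card K := by
    have := Nat.card_le_card_of_injective α.toHomUnits fun a b e => hα (congrArg Units.val e)
    have := Nat.card_pos (α := K)
    rw [Nat.card_units] at *; omega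
  have a2 : s = 1 ∨ 2 ≤ s ∧ 2 ≤ Nat.card A := by
    by_cases e : Nat.card A = 1
    · have := card_le_of_le ((le_inf le_rfl (commutator_eq_bot_iff_le_centralizer.1
        (eq_bot_iff.2 (card_eq_one.1 e ▸ f3)))).trans f5)
      have := Nat.card_pos (α := F)
      left; nlinarith
    · have := Nat.card_pos (α := F)
      have : s ≠ 0 := by rintro rfl; omega
      omega
  obtain ⟨Q, _, _, π, q1, q2, q3⟩ := h.sympl α hα hm f1 f2 f3 f4 f6 (lt_of_lt_of_le (by
    rcases a2 with rfl | ⟨-, a2⟩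
    · exact Finite.one_lt_card
    · have : ∀ e, e * e < 3 ^ e := fun e => by
        induction e with
        | zero => simp
        | succ e ih => rw [pow_succ]; nlinarith [le_three_pow e]
      exact hs ▸ (Nat.mul_le_mul f7 f7).trans_lt ((this _).trans_le (Nat.pow_le_pow_left (by omega) _))) hk)
  have c1 := card_eq_mul σ _ (MonoidHom.rangeRestrict_surjective _) (subtype_injective _) hσ
  have c2 := card_eq_mul π _ q1 (inclusion_injective _) q2
  have c3 := (T_le_cp_mul (ρ := ρ) (b := b) σ _ (subtype_injective _) fun g => (hσ g).1).trans (Nat.mul_le_mul cp_le_sq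
    (T_le_cp_mul π _ (inclusion_injective _) fun g => (q2 g).1))
  have o3 : ∀ {X Y : Subgroup G}, p = 2 → Y ≤ F → X < Y → 3 * Nat.card X ≤ Nat.card Y := fun e h1 h2 =>
    three_mul_card_le h2 fun d => f8 (e ▸ d.trans (card_dvd_of_le h1))
  rcases ok with ⟨rfl, rfl⟩ | ⟨rfl, rfl, rfl⟩
  · obtain ⟨v, hv⟩ := exists_ne (0 : V)
    have c4 := T_le_kgv (ρ := res (res ρ (centralizer (A : Set G)).subtype) (inclusion f2)) (p := c)
      (hf.comp ((subtype_injective _).comp (inclusion_injective _))) (fun w => by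
        have : (c : K) = 0 := by
          have := Fintype.ofFinite K
          exact pow_eq_zero_iff (n := f) (by omega) |>.1 (by
            rw [← Nat.cast_pow, ← hK, Nat.card_eq_fintype_card]; exact FiniteField.cast_card_eq_zero K)
        rw [← Nat.cast_smul_eq_nsmul K, this, zero_smul]) f8 v fun a b ha hb => by
      have m := f3 (commutator_mem_commutator a.2 b.2)
      have i : ∀ x : G, ρ x v = v → ρ x⁻¹ v = v := fun x e => (congrArg _ e.symm).trans (ρ.inv_self_apply _ _)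
      have e : α ⟨_, m⟩ • v = (1 : K) • v := by
        rw [← h0, one_smul]
        simp only [commutatorElement_def, map_mul, End.mul_apply]
        rw [i b hb, i a ha]; exact (congrArg _ hb).trans ha
      exact Subtype.ext (commutatorElement_eq_one_iff_mul_comm.1 (congrArg Subtype.val
        (hα ((smul_left_injective K hv e).trans α.map_one.symm))))
    rw [c1, c2, mul_pow, ← hV]
    generalize Nat.card (MulSemiringAction.toRingAut G K).range = t at *
    calc _ ≤ t * t * (cp Q * (Nat.card V * Nat.card F)) * 3 := by grw [c3, c4]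
      _ = t * t * (3 * cp Q) * (Nat.card V * Nat.card F) := by ring
      _ ≤ t * t * (3 ^ s * Nat.card Q) * (Nat.card V * Nat.card F) := by gcongr
      _ = t * 3 ^ s * Nat.card V * (t * (Nat.card Q * Nat.card F)) := by ring
      _ ≤ _ := by grw [num1 ht f7 he (by omega)]
  rw [T_eq (.inl trivial), T_eq (.inl trivial)] at c3
  rw [T_eq (.inl trivial), mul_one, mul_comm]
  rw [hK] at a1
  rcases a2 with rfl | ⟨a2, a3⟩
  · obtain rfl : A = F := eq_of_le_of_card_ge f1 (by omega)
    have e := (f4 _ inferInstance le_rfl (commutator_le_right _ _)).antisymm hA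
    have := cp_le_ab A fun g hg => o3 rfl le_rfl (lt_of_le_of_ne inf_le_left fun e' => hg (e.le fun a ha =>
      mem_centralizer_singleton_iff.1 (e'.ge ha).2))
    rw [e] at c1
    rw [Nat.eq_of_mul_eq_mul_right a0 (A.index_mul_card.trans c1)] at this
    rw [c1]
    nlinarith [Nat.mul_le_mul_left (Nat.card A) (num2 ht' ht a1 he)]
  · have b1 : 3 ≤ s := by
      by_contra e
      obtain rfl : s = 2 := by omega
      omega
    have b2 : 2 ≤ f := by
      by_contra e
      obtain rfl | rfl : f = 0 ∨ f = 1 := by omega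
      all_goals omega
    have b3 := cp_le_of_cent (A.subgroupOf F : Set F) (a := 3) (c := Nat.card F) fun g hg => by
      have := three_mul_card_le (A := ⊤) (H := centralizer {g}) (lt_top_iff_ne_top.2 fun e => hg (f5 ⟨g.2, fun x hx =>
        congrArg Subtype.val (mem_centralizer_singleton_iff.1 (e.ge (mem_top (⟨x, hx⟩ : F))))⟩)) (by rwa [card_top])
      rwa [card_top] at this
    rw [show (A.subgroupOf F : Set F).ncard = Nat.card A from H1.card_subgroupOf_of_le f1] at b3
    have b4 : 3 * cp F ≤ Nat.card A * (s * s + 2) * Nat.card F := by nlinarith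
    refine Nat.le_of_mul_le_mul_left ?_ three_pos
    rw [c1, c2]
    generalize Nat.card (MulSemiringAction.toRingAut G K).range = t at *
    calc _ ≤ 3 * (3 * (t * t * (cp Q * cp F))) := by gcongr
      _ = t * t * (3 * cp Q) * (3 * cp F) := by ring
      _ ≤ t * t * (3 ^ s * Nat.card Q) * (Nat.card A * (s * s + 2) * Nat.card F) := by gcongr
      _ = t * 3 ^ s * (Nat.card A * (s * s + 2)) * (t * (Nat.card Q * Nat.card F)) := by ring
      _ ≤ _ := by grw [num3 ht f7 b1 b2 a1, mul_assoc]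

end Cfsg.Agent.Kr
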