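import Cfsg.Agent.Kr.P

/-! The irreducible case, the main claim, and the bound for `p`-constrained solvable groups. -/

set_option autoImplicit false
set_option linter.unusedSectionVars false

namespace Cfsg.Agent.Kr

open Subgroup Function Module MulAction
open scoped IsMulCommutative Pointwise

universe u

variable {V G : Type u} [AddCommGroup V] [Finite V] [Group G] [Finite G] [Group.IsSolvable G]
  {ρ : Representation ℤ G V} {p n c k : ℕ} {b : Prop}

/-- the ring of endomorphisms generated by `A` -/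
def RR (ρ : Representation ℤ G V) (A : Subgroup G) : Subring (End ℤ V) := Subring.closure (ρ '' A)

instance RR.comm (A : Subgroup G) [IsMulCommutative A] : IsMulCommutative (RR ρ A) :=
  Subring.isMulCommutative_closure (by
    rintro _ ⟨a, ha, rfl⟩ _ ⟨b, hb, rfl⟩
    rw [← map_mul, ← map_mul, setLike_mul_comm ha hb])

instance RR.finite (A : Subgroup G) : Finite (RR ρ A) :=
  haveI : Finite (End ℤ V) := .of_injective _ DFunLike.coe_injective
  inferInstance

instance RR.act (A : Subgroup G) [hA : A.Normal] : MulSemiringAction G (RR ρ A) where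
  smul g a := ⟨ρ g * a * ρ g⁻¹, by
    obtain ⟨a, ha⟩ := a
    induction ha using Subring.closure_induction with
    | mem x hx =>
      obtain ⟨a, ha, rfl⟩ := hx
      exact Subring.subset_closure ⟨_, hA.conj_mem a ha g, by simp⟩
    | zero => simp
    | one => simp [← map_mul]
    | add x y _ _ hx hy => simpa [mul_add, add_mul] using add_mem hx hy
    | neg x _ hx => simpa using hx
    | mul x y _ _ hx hy =>
      convert mul_mem hx hy using 1
      simp [mul_assoc, ← mul_assoc (ρ g⁻¹), ← map_mul]⟩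
  one_smul a := Subtype.ext (show ρ 1 * a * ρ 1⁻¹ = a by simp)
  mul_smul g h a := Subtype.ext (show ρ (g * h) * a * ρ (g * h)⁻¹ = ρ g * (ρ h * a * ρ h⁻¹) * ρ g⁻¹ by simp [mul_assoc])
  smul_zero g := Subtype.ext (show ρ g * 0 * ρ g⁻¹ = 0 by simp)
  smul_add g a b := Subtype.ext (show ρ g * (a + b) * ρ g⁻¹ = ρ g * a * ρ g⁻¹ + ρ g * b * ρ g⁻¹ by simp [mul_add, add_mul])
  smul_one g := Subtype.ext (show ρ g * 1 * ρ g⁻¹ = 1 by simp [← map_mul])
  smul_mul g a b := Subtype.ext (show ρ g * (a * b) * ρ g⁻¹ = ρ g * a * ρ g⁻¹ * (ρ g * b * ρ g⁻¹) by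
    simp [mul_assoc, ← mul_assoc (ρ g⁻¹), ← map_mul])

theorem RR.smul_apply {A : Subgroup G} [A.Normal] (g : G) (a : RR ρ A) (v : V) : ρ g (a • v) = (g • a) • ρ g v :=
  show ρ g (a.1 v) = ρ g (a.1 (ρ g⁻¹ (ρ g v))) by simp

theorem MC.irr (h : MC.{u} k) [Nontrivial V] (hp : p.Prime) (hk : Nat.card V ≤ k) (hV : Nat.card V = p ^ n)
    (hf : Injective ρ) (ok : OK b p c) (hi : H4.IrrZ ρ) : T ρ b * 3 ≤ (3 * c) ^ n * Nat.card G := by
  obtain ⟨A, -, ⟨_, hA⟩, hm⟩ := Finite.exists_le_maximal (p := fun B : Subgroup G => B.Normal ∧ B ≤ centralizer B)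
    (a := ⊥) ⟨inferInstance, bot_le⟩
  haveI : IsMulCommutative A := le_centralizer_iff_isMulCommutative.1 hA
  let Ω : SubMulAction G (Ideal (RR ρ A)) := ⟨{I | I.IsPrime ∧ ∃ w : V, w ≠ 0 ∧ ∀ a ∈ I, a • w = 0},
    fun g I ⟨_, w, h1, h2⟩ => ⟨inferInstance, ρ g w, fun e => h1 (by rw [← ρ.inv_self_apply g w, e, map_zero]),
      fun a ha => by rw [← smul_inv_smul g a, ← RR.smul_apply, h2 _ (Ideal.mem_pointwise_smul_iff_inv_smul_mem.1 ha),
        map_zero]⟩⟩
  haveI : Finite (Ideal (RR ρ A)) := .of_injective _ SetLike.coe_injective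
  obtain ⟨I, hI⟩ := associatedPrimes.nonempty (RR ρ A) V
  obtain ⟨hI, w, rfl⟩ := isAssociatedPrime_iff.1 hI
  let I : Ω := ⟨_, hI, w, fun e => hI.ne_top (by simp [e]), fun a ha => by simpa using ha⟩
  haveI : Nonempty Ω := ⟨I⟩
  let U : Set Ω → Submodule ℤ V := fun S =>
    { carrier := {w | ∀ a : RR ρ A, (∀ J ∈ S, a ∈ (J : Ideal _)) → a • w = 0}
      add_mem' := fun h1 h2 a ha => by rw [smul_add, h1 a ha, h2 a ha, add_zero]
      zero_mem' := fun a _ => smul_zero a
      smul_mem' := fun z w h a ha => by rw [smul_comm, h a ha, smul_zero] }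
  have hU : ∀ S, ∀ g ∈ (toPermHom G Ω).ker, U S ≤ (U S).comap (ρ g) := fun S g hg w hw a ha => by
    rw [← smul_inv_smul g a, ← RR.smul_apply, hw _ fun J hJ => Ideal.mem_pointwise_smul_iff_inv_smul_mem.1
      ((congrArg Subtype.val (Equiv.congr_fun hg J)).ge (ha J hJ)), map_zero]
  rcases subsingleton_or_nontrivial Ω with h1 | h1
  · obtain ⟨w, w1, w2⟩ := I.2.2
    have e : (I : Ideal (RR ρ A)) = ⊥ := eq_bot_iff.2 fun a ha => Subtype.ext (LinearMap.ext fun v =>
      ((hi (U {I}) fun g => hU _ g (Subsingleton.elim _ _)).resolve_left fun e => w1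
        (e.le fun a ha => w2 a (ha I rfl))).ge Submodule.mem_top a fun J hJ => hJ ▸ ha)
    haveI : (⊥ : Ideal (RR ρ A)).IsPrime := e ▸ I.2.1
    haveI : IsDomain (RR ρ A) := IsDomain.of_bot_isPrime _
    letI := (Finite.isField_of_domain (RR ρ A)).toField
    refine h.prim (K := RR ρ A) ((ρ.comp A.subtype).codRestrict _ fun a => Subring.subset_closure ⟨a, a.2, rfl⟩) hp hk
      hV hf ok hA (fun B _ h1 h2 => hm ⟨‹_›, h1⟩ h2) (fun _ _ => rfl) RR.smul_apply fun g hg y => Subtype.ext ?_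
    have : (y : End ℤ V) ∈ Subring.centralizer {ρ g} := Subring.closure_le.2 (by
      rintro _ ⟨a, ha, rfl⟩ _ rfl
      rw [← map_mul, ← map_mul, hg a ha]) y.2
    exact (congrArg (· * ρ g⁻¹) (this _ rfl)).trans (by simp [mul_assoc, ← map_mul])
  haveI := Group.isSolvable_of_surjective (toPermHom G Ω).rangeRestrict_surjective
  have a1 := perm_le (toPermHom G Ω).range
  obtain ⟨C, c1, c2⟩ := exists_chain U fun S J hJ => by
    obtain ⟨w, w1, w2⟩ := J.2.2
    refine ⟨fun v hv a ha => hv a fun J hJ => ha J (.inr hJ), fun h => ?_⟩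
    have e := (IsArtinianRing.isPrime_iff_isMaximal _).1 J.2.1 |>.eq_of_le (J := Ideal.torsionOf (RR ρ A) V w)
      (fun e => w1 (by simpa using (Ideal.eq_top_iff_one _).1 e)) fun a ha => by simpa using w2 a ha
    obtain ⟨J', j1, j2⟩ := (J.2.1.inf_le' (s := S.toFinite.toFinset) (f := Subtype.val)).1 fun a ha => e.ge (by
      simpa using h (show w ∈ U _ from fun a ha => w2 a (ha J (.inl rfl))) a fun J hJ =>
        (Finset.inf_le (f := Subtype.val) (S.toFinite.mem_toFinset.2 hJ) :) ha)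
    exact hJ (Subtype.ext (((IsArtinianRing.isPrime_iff_isMaximal _).1 J'.2.1).eq_of_le J.2.1.ne_top j2) ▸
      S.toFinite.mem_toFinset.1 j1)
  obtain ⟨m, hm'⟩ : ∃ m, Nat.card Ω = m + 2 := ⟨_, (Nat.sub_add_cancel Finite.one_lt_card).symm⟩
  rw [hm'] at c2 a1
  have c3 : ∀ i, Inv (res ρ (toPermHom G Ω).ker.subtype) (C i) := fun i g => by
    obtain ⟨S, e⟩ := c1 i
    exact e ▸ hU S g g.2
  obtain ⟨W, hW, w1, _, w2⟩ := exists_max (c3 (m + 1)) (c2 _ (by omega)).ne_top
  haveI : Nontrivial W := Submodule.nontrivial_iff_ne_bot.2 ((c2 m (by omega)).trans_le w1).ne_bot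
  have a2 := h.split hp hk hV (hf.comp (subtype_injective _) :) (pCore_normal (pCore_irr hi hp hV hf) _) ok c3
    (fun i hi => c2 i (by omega)) hW w1 w2
  have a3 := (T_le_cp_mul (ρ := ρ) (b := b) (toPermHom G Ω).rangeRestrict _ (toPermHom G Ω).ker.subtype_injective
    fun g hg => ⟨⟨g, congrArg Subtype.val hg⟩, rfl⟩).trans (Nat.mul_le_mul_right _ cp_le_sq)
  rw [card_eq_card_quotient_mul_card_subgroup (toPermHom G Ω).ker,
    Nat.card_congr (QuotientGroup.quotientKerEquivRange _).toEquiv]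
  nlinarith [Nat.mul_le_mul_left (Nat.card (toPermHom G Ω).range) a2, Nat.mul_le_mul_left
    (Nat.card (toPermHom G Ω).range * T (res ρ (toPermHom G Ω).ker.subtype) b) a1]

theorem mc (k : ℕ) : MC.{u} k := by
  induction k with
  | zero => exact fun V G _ _ _ _ _ ρ p n c b _ h => absurd h (Nat.not_lt_zero _)
  | succ k h =>
    intro V G _ _ _ _ _ ρ p n c b hp hk hV hf hc ok
    have key : ∀ (m : ℕ) (U : ℕ → Submodule ℤ V), (∀ i, Inv ρ (U i)) → (∀ i < m + 1, U i < U (i + 1)) →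
        T ρ b * 3 ^ (m + 1) ≤ (3 * c) ^ n * Nat.card G := fun m U h1 h2 => by
      have u := (h2 m (by omega)).ne_top
      by_cases hi : H4.IrrZ ρ
      · have e := (hi _ (h1 m)).resolve_right u
        haveI : Nontrivial V := Submodule.nontrivial_iff ℤ |>.1 ⟨_, _, u⟩
        obtain rfl : m = 0 := by
          by_contra e'
          obtain ⟨m, rfl⟩ := Nat.exists_eq_succ_of_ne_zero e'
          exact not_lt_bot ((h2 m (by omega)).trans_eq e)
        simpa using h.irr hp (by omega) hV hf ok hi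
      · obtain ⟨X, x1, x2, x3, x4⟩ : ∃ X, Inv ρ X ∧ X ≠ ⊥ ∧ X ≠ ⊤ ∧ U m ≤ X := by
          by_cases e : U m = ⊥
          · simp only [H4.IrrZ, not_forall, not_or] at hi
            obtain ⟨X, x1, x2, x3⟩ := hi
            exact ⟨X, x1, x2, x3, e.trans_le bot_le⟩
          · exact ⟨_, h1 m, e, u, le_rfl⟩
        obtain ⟨W, hW, w1, _, w2⟩ := exists_max x1 x3
        haveI : Nontrivial W := Submodule.nontrivial_iff_ne_bot.2 (ne_bot_of_le_ne_bot x2 w1)
        exact h.split hp (by omega) hV hf hc ok h1 (fun i hi => h2 i (by omega)) hW (x4.trans w1) w2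
    rintro (_ | m) U h1 h2
    · rcases subsingleton_or_nontrivial V with e | e
      · haveI : Subsingleton G := hf.subsingleton
        obtain rfl : n = 0 := (Nat.pow_eq_one.1 (hV.symm.trans Nat.card_unique)).resolve_left hp.ne_one
        rw [T_eq (.inr e)]
        simpa using cp_le_sq (G := G)
      · have := key 0 (fun i => if i = 0 then ⊥ else ⊤) (fun i g => by split_ifs <;> simp) fun i hi => by simp_all
        omega
    · exact key m U h1 h2

theorem cp_bound [hp : Fact p.Prime] (k : ℕ) : ∀ (X : Type u) [Group X] [Finite X] [Group.IsSolvable X] [Nontrivial X],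
    Nat.card X = k → pPrimeCore p X = ⊥ → 3 * cp X ≤ (3 * p) ^ (Nat.card X).factorization p * Nat.card X := by
  induction k using Nat.strong_induction_on with | _ k ih => ?_
  intro X _ _ _ _ hk h
  obtain ⟨q, M, hq, _, m1, _, m2⟩ := H1.exists_normal_pGroup (G := X) inferInstance
  haveI := Fact.mk hq
  obtain ⟨n, hn⟩ := IsPGroup.iff_card.1 m2
  obtain rfl : q = p := by_contra fun e => m1 (eq_bot_iff.2 (h ▸ H1.le_pPrimeCore ‹_›
    (hn ▸ ((Nat.coprime_primes hq hp.1).2 e).pow_left _)))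
  let K := (pPrimeCore q (X ⧸ M)).comap (QuotientGroup.mk' M)
  have k1 : M ≤ K := (QuotientGroup.ker_mk' M).ge.trans (ker_le_comap _ _)
  have k2 : Nat.card K = _ := H1.card_comap_mk' M _
  have k3 := H1.card_subgroupOf_of_le k1
  have k4 : (M.subgroupOf K).index = Nat.card (pPrimeCore q (X ⧸ M)) :=
    Nat.eq_of_mul_eq_mul_right (Nat.card_pos (α := M)) (by rw [← k2, ← k3, index_mul_card])
  have k5 := H1.pPrimeCore_coprime q (X ⧸ M)
  have k6 : (Nat.card (M.subgroupOf K)).Coprime (M.subgroupOf K).index := by rw [k3, k4, hn]; exact k5.symm.pow_left _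
  obtain ⟨H, hH⟩ := exists_right_complement'_of_coprime k6
  have k7 := hH.symm.index_eq_card
  haveI : Nontrivial (M.subgroupOf K) := Finite.one_lt_card_iff_nontrivial.1 (k3 ▸ (one_lt_card_iff_ne_bot M).2 m1)
  have k8 : H ⊓ centralizer (M.subgroupOf K) ≤ ⊥ := ((map_eq_bot_iff_of_injective _ K.subtype_injective).1
    (eq_bot_iff.2 (h ▸ H1.map_subtype_pPrimeCore_le K))) ▸ H1.le_pPrimeCore ⟨fun x hx g => by
      obtain ⟨⟨a, y⟩, rfl⟩ := hH.2 g
      have : y * x * y⁻¹ ∈ H ⊓ centralizer (M.subgroupOf K) :=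
        ⟨H.mul_mem (H.mul_mem y.2 hx.1) (H.inv_mem y.2), Normal.conj_mem inferInstance x hx.2 y⟩
      convert this using 1
      rw [eq_comm, ← mul_inv_cancel_right (y * x * y⁻¹ : K) a, ← this.2 a a.2]
      simp [mul_assoc]⟩ ((k7 ▸ k4 ▸ k5).coprime_dvd_left (card_dvd_of_le inf_le_left))
  have a1 := (mc _).one (ρ := res (H4.conjRep (M.subgroupOf K)) H.subtype) hp.1 (Nat.lt_succ_self _) (k3.trans hn)
    ((injective_iff_map_eq_one _).2 fun g hg => Subtype.ext (k8 ⟨g.2, fun a ha => (mul_inv_eq_iff_eq_mul.1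
      (congrArg (fun v => (v.toMul : K)) (LinearMap.congr_fun hg (.ofMul ⟨a, ha⟩)))).symm⟩))
    (eq_bot_iff.2 (H1.le_of_coprime_index (by
      obtain ⟨j, e⟩ := IsPGroup.iff_card.1 (H1.pCore_isPGroup q H)
      rw [index_bot, e, ← k7, k4]; exact k5.symm.pow_left _))) (.inl ⟨rfl, rfl⟩)
  have a2 := cp_eq_of_compl _ hH (k7 ▸ k6)
  let f := (QuotientGroup.mk' (pPrimeCore q (X ⧸ M))).comp (QuotientGroup.mk' M)
  have f1 : ∀ g, f g = 1 ↔ ∃ x, K.subtype x = g := fun g =>
    (QuotientGroup.eq_one_iff _).trans ⟨fun h => ⟨⟨g, h⟩, rfl⟩, by rintro ⟨x, rfl⟩; exact x.2⟩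
  have f2 := card_eq_mul f _ ((QuotientGroup.mk'_surjective _).comp (QuotientGroup.mk'_surjective _))
    K.subtype_injective f1
  have f3 := cp_le_mul f _ K.subtype_injective fun g => (f1 g).1
  have a3 : cp ((X ⧸ M) ⧸ pPrimeCore q (X ⧸ M)) ≤ (3 * q) ^ (Nat.card ((X ⧸ M) ⧸ pPrimeCore q (X ⧸ M))).factorization q *
      Nat.card ((X ⧸ M) ⧸ pPrimeCore q (X ⧸ M)) := by
    rcases subsingleton_or_nontrivial ((X ⧸ M) ⧸ pPrimeCore q (X ⧸ M)) with e | e
    · simpa using cp_le_sq (G := (X ⧸ M) ⧸ pPrimeCore q (X ⧸ M))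
    · have := ih _ (hk ▸ (Nat.card_le_card_of_surjective _ (QuotientGroup.mk'_surjective _)).trans_lt
        (H1.card_quotient_lt m1)) _ rfl (H1.pPrimeCore_quotient_pPrimeCore q _)
      omega
  have a4 : (Nat.card K).factorization q = n := by
    rw [k2, hn, Nat.factorization_mul Nat.card_pos.ne' (pow_ne_zero _ hq.ne_zero), Finsupp.add_apply,
      Nat.factorization_eq_zero_of_not_dvd (H1.coprime_iff_not_dvd.1 k5), hq.factorization_pow]
    simp
  rw [f2, Nat.factorization_mul Nat.card_pos.ne' Nat.card_pos.ne', Finsupp.add_apply, a4, pow_add, ← hH.card_mul_card]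
  nlinarith [Nat.mul_le_mul a3 (Nat.mul_le_mul_left (Nat.card (M.subgroupOf K)) a1)]

end Cfsg.Agent.Kr
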